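import Cfsg.Agent.TriCC.Key

/-!
# The element for `q ≥ 4`: a regular element of the split torus
-/

set_option autoImplicit false
set_option linter.unusedSectionVars false

namespace Cfsg.Agent.TriCC

open Cfsg.Lie Cfsg.Agent.ChevGrp Cfsg.Agent.Chev Cfsg.Agent.ChevTw Cfsg.Agent.ChevTw.D4Torus
  Cfsg.Agent.ChevTw.D4Max

/-- A commutator with a diagonal element. -/
theorem exists_comm_diag {F : Type*} [Field F] (α : Fˣ) (hα : (α : F) ≠ 1) {μ : SL2 F}
    (h : ¬ IsScalar μ) : ∃ ν σ : SL2 F, ν * μ * ν⁻¹ = conjDg α σ * σ⁻¹ := by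
  set a0 : F := (α : F) with ha0
  have hα0 : a0 ≠ 0 := α.ne_zero
  have h1 : 1 - a0 ≠ 0 := sub_ne_zero.2 (Ne.symm hα)
  set τ := μ.1 0 0 + μ.1 1 1 with hτ
  set P : F := -(τ - a0 - a0⁻¹) * a0 / (1 - a0) ^ 2 with hP
  obtain ⟨ν, h00, h10⟩ := exists_conj_corner h (P * (1 - a0) + a0)
  have htr : (ν * μ * ν⁻¹).1 0 0 + (ν * μ * ν⁻¹).1 1 1 = τ := sl_trace_conj ν μ
  obtain ⟨μ', hμ'⟩ : ∃ μ', μ' = ν * μ * ν⁻¹ := ⟨_, rfl⟩
  rw [← hμ'] at h00 h10 htr
  set d : F := μ'.1 1 0 * a0 / (1 - a0) with hd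
  have hd0 : d ≠ 0 := div_ne_zero (mul_ne_zero h10 hα0) h1
  let σ : SL2 F := ⟨!![P / d, P - 1; 1, d], by
    rw [Matrix.det_fin_two_of, div_mul_cancel₀ P hd0]; ring⟩
  have hval : (conjDg α σ * σ⁻¹).1 =
      !![P - a0 * (P - 1), P / d * (P - 1) * (a0 - 1);
        d * (a0⁻¹ - 1), P - (P - 1) * a0⁻¹] := by
    rw [RankOne.sl_mul_val, conjDg_val, Matrix.SpecialLinearGroup.coe_inv]
    ext i j
    fin_cases i <;> fin_cases j <;>
      simp [σ, Matrix.adjugate_fin_two, Matrix.mul_apply, Fin.sum_univ_two, ← ha0] <;>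
      field_simp <;> ring
  refine ⟨ν, σ, hμ' ▸ sl_ext ?_ ?_ ?_ h10⟩
  · rw [h00, hval]
    simp
    ring
  · rw [hval]
    simp
    rw [hd]
    field_simp
  · rw [hval]
    have e : μ'.1 1 1 = τ - (P * (1 - a0) + a0) := by rw [← h00, ← htr]; ring
    rw [e]
    simp
    rw [hP]
    field_simp
    ring

variable {K : Type*} [Field K] [Fintype K] {q : ℕ} (hq : IsPrimePow q) (hK : Fintype.card K = q ^ 3)

include hq hK in
/-- The case `q ≥ 4`. -/
theorem regular_case (p : ℕ) [Fact p.Prime] [CharP K p] (h4 : 4 ≤ q) :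
    ∃ x ∈ twistedD4 K q, x ^ (q ^ 3 - 1) = 1 ∧ ∀ g ∈ twistedD4 K q, g ≠ 1 →
      ∃ u ∈ twistedD4 K q, ∃ v ∈ twistedD4 K q, g = (u * x * u⁻¹) * (v * x * v⁻¹) := by
  classical
  have : Fintype (FF hq hK) := Fintype.ofFinite _
  have hcard : Fintype.card (FF hq hK) = q := by rw [← Nat.card_eq_fintype_card, card_FF]
  obtain ⟨w0, hw0⟩ : ∃ w : FF hq hK, w ∉ ({0, 1, -1} : Finset (FF hq hK)) := by
    by_contra hne
    push Not at hne
    have := Finset.card_le_card (s := (Finset.univ : Finset (FF hq hK))) fun a _ => hne a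
    rw [Finset.card_univ, hcard] at this
    have := this.trans Finset.card_le_three
    omega
  simp only [Finset.mem_insert, Finset.mem_singleton, not_or] at hw0
  obtain ⟨τ0, hτ0⟩ : ∃ τ : FF hq hK, τ ∉ ({2, -2} : Finset (FF hq hK)) := by
    by_contra hne
    push Not at hne
    have := Finset.card_le_card (s := (Finset.univ : Finset (FF hq hK))) fun a _ => hne a
    rw [Finset.card_univ, hcard] at this
    have := this.trans Finset.card_le_two
    omega
  simp only [Finset.mem_insert, Finset.mem_singleton, not_or] at hτ0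
  obtain ⟨v, hN, hv⟩ := exists_v hq hK
  have hv2 : (v ^ 2) ^ q ≠ v ^ 2 := hv 2 (by norm_num) (by have := hq.one_lt; nlinarith [Nat.sub_le q 1])
  set wF : (FF hq hK)ˣ := Units.mk0 w0 hw0.1 with hwF
  set w : Kˣ := Units.map (FF hq hK).subtype.toMonoidHom wF with hw
  have hwq : w ^ q = w := Units.ext (by
    rw [Units.val_pow_eq_pow_val]; exact pow_q_FF hq hK w0)
  have hw1 : w ≠ 1 := fun e => hw0.2.1 (Subtype.ext (congrArg Units.val e))
  set c := cvw q v w with hc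
  set x := torD4 K c with hx
  have hchi : chiD4 K c 14 = w ^ 2 := by
    rw [(chi_14 c).1]
    show v⁻¹ * w ^ 2 * (v ^ q)⁻¹ * ((v ^ q) ^ q)⁻¹ = w ^ 2
    calc v⁻¹ * w ^ 2 * (v ^ q)⁻¹ * ((v ^ q) ^ q)⁻¹
        = w ^ 2 * (v * v ^ q * (v ^ q) ^ q)⁻¹ := by rw [mul_inv_rev, mul_inv_rev]; ac_rfl
      _ = w ^ 2 := by rw [hN, inv_one, mul_one]
  have hxG : x ∈ twistedD4 K q := by
    rw [hx, hc, torD4_cvw]
    exact mul_mem (sigS_mem hq hK v) (hzero_mem hq hK hwq)
  have hconj : ∀ σ : SL2 (FF hq hK),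
      x * phF hq hK σ * x⁻¹ = phF hq hK (conjDg (wF ^ 2) σ) := by
    intro σ
    rw [hx, phF_apply, phF_apply, tor_conj_phA, map_conjDg, hchi, map_pow]
  set Allowed : SL2 (FF hq hK) → Prop := fun μ => ¬ IsScalar μ
  have hA : AllowOK hq hK Allowed := by
    refine ⟨fun u => ⟨1, fun hs => ?_⟩, τ0, fun μ ht hs => ?_⟩
    · have := hs.1
      rw [RankOne.sl_mul_val] at this
      simp [sdg, RankOne.upper, Matrix.mul_apply, Fin.sum_univ_two] at this
    · rcases isScalar_cases hs with rfl | rfl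
      · exact hτ0.1 (by rw [← ht]; norm_num [Matrix.SpecialLinearGroup.coe_one])
      · exact hτ0.2 (by rw [← ht]; norm_num [Matrix.SpecialLinearGroup.coe_neg])
  have hgood : GoodElt hq hK Allowed x := by
    refine ⟨hxG, tor_norm (torD4_mem_Hbar c) list_tbl.1, tor_norm (torD4_mem_Hbar c) list_tbl.2.1,
      fun u hu hcu => ?_, ⟨n0 K, n0_mem hq hK, n0_inverts c, fun u hu => ?_⟩, fun μ hμ => ?_⟩
    · obtain ⟨f, hf, hsupp⟩ := tor_supp (L := upL) (by simp) (by decide) list_tbl.1 c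
        (Subgroup.mem_inf.1 hu).1 hcu.symm
      rw [hf]
      refine (sysD4 K).P_zero (fun r hr => list_tbl.1 r hr) fun r hr => hsupp r hr ?_
      exact chi_ne hK hN hv2 hwq hr fun _ => hw1
    · simpa using n0_exchange hq hK 1 hu
    · have hα : ((wF ^ 2 : (FF hq hK)ˣ) : FF hq hK) ≠ 1 := by
        intro e
        rw [Units.val_pow_eq_pow_val, Units.val_mk0, sq_eq_one_iff] at e
        exact e.elim hw0.2.1 hw0.2.2
      obtain ⟨ν, σ, e⟩ := exists_comm_diag (wF ^ 2) hα hμ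
      exact ⟨ν, σ, by rw [e, map_mul, map_inv, hconj]⟩
  refine ⟨x, hxG, ?_, fun g hg hg1 => exists_two_conj hq hK hA hgood p hg hg1⟩
  rw [hx, ← map_pow, ← map_one (torD4 K)]
  congr 1
  funext j
  rw [Pi.pow_apply, Pi.one_apply, ← hK]
  refine Units.ext ?_
  rw [Units.val_pow_eq_pow_val, Units.val_one]
  exact FiniteField.pow_card_sub_one_eq_one _ (Units.ne_zero _)

end Cfsg.Agent.TriCC
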