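import Cfsg.Agent.TriCC.Key

/-!
# The elements for `q = 2` and `q = 3`
-/

set_option autoImplicit false
set_option linter.unusedSectionVars false

namespace Cfsg.Agent.TriCC

open Cfsg.Lie Cfsg.Agent.ChevGrp Cfsg.Agent.Chev Cfsg.Agent.ChevTw Cfsg.Agent.ChevTw.D4Torus
  Cfsg.Agent.ChevTw.D4Max

theorem top_tbl : (∀ r ∈ [22, 23], chevD4.cartan 0 r = chevD4.cartan 2 r ∧
      chevD4.cartan 2 r = chevD4.cartan 3 r ∧ r < 24) ∧
    chevD4.commTerms 14 22 = [(23, 1, 1, 1)] ∧ chevD4.commTerms 14 23 = [] ∧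
    chevD4.commTerms 22 23 = [] ∧ chevD4.reflectRoot 1 23 = 22 ∧ chevD4.neg 14 = 9 ∧
    chevD4.neg 22 = 1 := by decide +kernel

/-- An element of `SL₂` from its entries. -/
def mk2 {F : Type*} [Field F] (a b c d : F) (h : a * d - b * c = 1) : SL2 F :=
  ⟨!![a, b; c, d], by rw [Matrix.det_fin_two_of]; exact h⟩

theorem mk2_val {F : Type*} [Field F] (a b c d : F) (h : a * d - b * c = 1) :
    (mk2 a b c d h).1 = !![a, b; c, d] := rfl

theorem weyl_val {F : Type*} [Field F] : (RankOne.weyl : SL2 F).1 = !![0, 1; -1, 0] := rfl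

theorem weyl_sq {F : Type*} [Field F] : RankOne.weyl * RankOne.weyl = (sdg (-1) : SL2 F) := by
  refine Subtype.ext ?_
  rw [RankOne.sl_mul_val]
  simp [RankOne.weyl, sdg]

section finite

variable {F : Type*} [Field F]

/-- Inverting the element of order four in characteristic three. -/
theorem three_inv (h3 : (3 : F) = 0) (b : Fˣ) (hb : (b : F) = 1 ∨ (b : F) = -1) :
    ∃ ν : SL2 F, ν * (RankOne.weyl * conjDg b RankOne.weyl * RankOne.weyl⁻¹) * ν⁻¹ =
      RankOne.weyl⁻¹ := by
  rcases hb with h | h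
  · refine ⟨mk2 1 1 1 (-1) (by linear_combination -h3), ?_⟩
    obtain rfl : b = 1 := Units.ext h
    refine Subtype.ext ?_
    simp only [RankOne.sl_mul_val, Matrix.SpecialLinearGroup.coe_inv, conjDg_val, mk2_val, weyl_val]
    have e1 : (1 + 1 : F) = -1 := by linear_combination h3
    ext i j
    fin_cases i <;> fin_cases j <;> simp [Matrix.adjugate_fin_two, e1] <;> linear_combination -h3
  · refine ⟨1, ?_⟩
    obtain rfl : b = -1 := Units.ext h
    refine Subtype.ext ?_
    simp only [one_mul, inv_one, mul_one, RankOne.sl_mul_val, Matrix.SpecialLinearGroup.coe_inv,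
      conjDg_val, weyl_val]
    ext i j
    fin_cases i <;> fin_cases j <;> simp [Matrix.adjugate_fin_two]

/-- A commutator equal to minus one in characteristic three. -/
theorem three_neg_one (h3 : (3 : F) = 0) :
    ∃ σ : SL2 F, RankOne.weyl * σ * RankOne.weyl⁻¹ * σ⁻¹ = -1 := by
  refine ⟨mk2 1 1 1 (-1) (by linear_combination -h3), Subtype.ext ?_⟩
  simp only [RankOne.sl_mul_val, Matrix.SpecialLinearGroup.coe_inv,
    Matrix.SpecialLinearGroup.coe_neg, Matrix.SpecialLinearGroup.coe_one, mk2_val, weyl_val]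
  have e1 : (1 + 1 : F) = -1 := by linear_combination h3
  ext i j
  fin_cases i <;> fin_cases j <;> simp [Matrix.adjugate_fin_two, e1]

/-- A commutator of trace zero in characteristic three. -/
theorem three_comm (h3 : (3 : F) = 0) {g : F} (hg : g * g = 1) :
    ∃ σ : SL2 F, (RankOne.weyl * σ * RankOne.weyl⁻¹ * σ⁻¹).1 0 0 = 1 ∧
      (RankOne.weyl * σ * RankOne.weyl⁻¹ * σ⁻¹).1 1 0 = g ∧
      (RankOne.weyl * σ * RankOne.weyl⁻¹ * σ⁻¹).1 1 1 = -1 := by
  refine ⟨mk2 1 1 (1 + g) (g - 1) (by linear_combination -h3), ?_⟩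
  simp only [RankOne.sl_mul_val, Matrix.SpecialLinearGroup.coe_inv, mk2_val, weyl_val]
  refine ⟨?_, ?_, ?_⟩ <;> simp [Matrix.adjugate_fin_two]
  · linear_combination (2 : F) * hg + h3
  · linear_combination -g * h3
  · linear_combination h3

/-- The facts for the element of order three in characteristic two. -/
theorem two_facts (h2 : (2 : F) = 0) {s : SL2 F}
    (hs : s = RankOne.weyl * RankOne.upper 1) :
    s ^ 3 = 1 ∧ RankOne.weyl * conjDg 1 s * RankOne.weyl⁻¹ = s⁻¹ ∧
      (s * RankOne.weyl * s⁻¹ * RankOne.weyl⁻¹).1 0 0 = 1 ∧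
      (s * RankOne.weyl * s⁻¹ * RankOne.weyl⁻¹).1 1 0 = 1 ∧
      (s * RankOne.weyl * s⁻¹ * RankOne.weyl⁻¹).1 1 1 = 0 := by
  have hm1 : (-1 : F) = 1 := by linear_combination -h2
  have h11 : (1 + 1 : F) = 0 := by linear_combination h2
  have hsval : s.1 = !![0, 1; 1, 1] := by
    rw [hs, RankOne.sl_mul_val]
    simp [RankOne.weyl, RankOne.upper, hm1]
  refine ⟨Subtype.ext ?_, Subtype.ext ?_, ?_⟩
  · rw [show s ^ 3 = s * s * s by simp [pow_succ, mul_assoc], RankOne.sl_mul_val,
      RankOne.sl_mul_val, hsval]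
    ext i j
    fin_cases i <;> fin_cases j <;> simp [Matrix.mul_apply, Fin.sum_univ_two, h11]
  · simp only [RankOne.sl_mul_val, Matrix.SpecialLinearGroup.coe_inv, conjDg_val, hsval, weyl_val]
    ext i j
    fin_cases i <;> fin_cases j <;> simp [Matrix.adjugate_fin_two, hm1]
  · simp only [RankOne.sl_mul_val, Matrix.SpecialLinearGroup.coe_inv, hsval, weyl_val]
    refine ⟨?_, ?_, ?_⟩ <;> simp [Matrix.adjugate_fin_two, hm1, h11]

end finite

variable {K : Type*} [Field K] [Fintype K] {q : ℕ} (hq : IsPrimePow q) (hK : Fintype.card K = q ^ 3)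

include hq hK in
theorem sigS_commute_phF {v : Kˣ} (hN : v * v ^ q * (v ^ q) ^ q = 1) (μ : SL2 (FF hq hK)) :
    Commute (sigS q v) (phF hq hK μ) := by
  refine mul_inv_eq_iff_eq_mul.1 ?_
  have h1 : chiF hq hK v = 1 := by
    refine Units.ext (Subtype.ext ?_)
    show ((chiD4 K (sMap q v) 14 : Kˣ) : K) = 1
    rw [(chi_14 (sMap q v)).1]
    show ((v⁻¹ * (1 : Kˣ) ^ 2 * (v ^ q)⁻¹ * ((v ^ q) ^ q)⁻¹ : Kˣ) : K) = 1
    rw [show v⁻¹ * (1 : Kˣ) ^ 2 * (v ^ q)⁻¹ * ((v ^ q) ^ q)⁻¹ = (v * v ^ q * (v ^ q) ^ q)⁻¹ by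
      rw [one_pow, mul_one, mul_inv_rev, mul_inv_rev]; ac_rfl, hN, inv_one, Units.val_one]
  rw [sigS_conj_phF, h1]
  congr 1
  refine Subtype.ext ?_
  rw [conjDg_val]
  ext i j
  fin_cases i <;> fin_cases j <;> simp

include hq hK in
/-- The action of the longest element on the long root `SL₂`. -/
theorem n0_phF : ∃ b : (FF hq hK)ˣ, ∀ μ : SL2 (FF hq hK),
    n0 K * phF hq hK μ * (n0 K)⁻¹ = phF hq hK (RankOne.weyl * conjDg b μ * RankOne.weyl⁻¹) := by
  obtain ⟨a, ha, hna⟩ := n0_conjP (K := K)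
  obtain ⟨-, -, -, -, -, n14, -⟩ := top_tbl
  have l14 : (14 : ℕ) < chevD4.nroots := by decide
  have l9 : (9 : ℕ) < chevD4.nroots := by decide
  have n9 : chevD4.neg 9 = 14 := by decide +kernel
  have c14 : ∀ t : K, n0 K * xGL chevD4 K 14 t * (n0 K)⁻¹ = xGL chevD4 K 9 (a 14 * t) := by
    intro t
    have := hna 14 l14 t
    rwa [w0_tbl.1 14 (by omega), n14] at this
  have c9 : ∀ t : K, n0 K * xGL chevD4 K 9 t * (n0 K)⁻¹ = xGL chevD4 K 14 (a 9 * t) := by
    intro t
    have := hna 9 l9 t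
    rwa [w0_tbl.1 9 (by omega), n9] at this
  have hm : a 9 * a 14 = 1 := by have := ha 14 l14; rwa [n14] at this
  have hq' : (a 14) ^ q = a 14 := by
    refine fixed_long hq hK (r := 9) (by simp) (sig_fixed hq hK ?_)
    rw [← mul_one (a 14), ← c14]
    exact mul_mem (mul_mem (n0_mem hq hK) (long_mem hq hK (by simp) (one_pow q)))
      (inv_mem (n0_mem hq hK))
  let aF : FF hq hK := ⟨a 14, (mem_FF hq hK).2 hq'⟩
  have haF : aF ≠ 0 := fun e => right_ne_zero_of_mul_eq_one hm (congrArg Subtype.val e)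
  refine ⟨-Units.mk0 aF haF, ?_⟩
  set b := -Units.mk0 aF haF with hb
  have hbK : ((b : FF hq hK) : K) = -a 14 := rfl
  have hbK' : (((b⁻¹ : (FF hq hK)ˣ) : FF hq hK) : K) = -a 9 := by
    rw [Units.val_inv_eq_inv_val]
    push_cast
    rw [hbK, inv_neg, inv_eq_of_mul_eq_one_left hm]
  have conjW : ∀ (F : Type _) [Field F] (t : F),
      RankOne.weyl * RankOne.upper t * RankOne.weyl⁻¹ = (lower (-t) : SL2 F) ∧
      RankOne.weyl * lower t * RankOne.weyl⁻¹ = (RankOne.upper (-t) : SL2 F) := by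
    intro F _ t
    constructor <;> refine Subtype.ext ?_ <;>
      rw [RankOne.sl_mul_val, RankOne.sl_mul_val, Matrix.SpecialLinearGroup.coe_inv] <;>
      simp [RankOne.upper, RankOne.weyl, lower, Matrix.adjugate_fin_two]
  refine fun μ => DFunLike.congr_fun
    (?_ : (MulAut.conj (n0 K)).toMonoidHom.comp (phF hq hK) =
      (phF hq hK).comp ((MulAut.conj (RankOne.weyl : SL2 (FF hq hK))).toMonoidHom.comp
        (conjDgHom b))) μ
  refine MonoidHom.ext (sl2_induction
    (P := ((MulAut.conj (n0 K)).toMonoidHom.comp (phF hq hK)).eqLocusM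
      ((phF hq hK).comp ((MulAut.conj (RankOne.weyl : SL2 (FF hq hK))).toMonoidHom.comp
        (conjDgHom b)))) (fun u => ?_) (fun u => ?_))
  · show n0 K * phF hq hK (RankOne.upper u) * (n0 K)⁻¹ =
      phF hq hK (RankOne.weyl * conjDg b (RankOne.upper u) * RankOne.weyl⁻¹)
    rw [conjDg_upper, (conjW _ _).1, phF_upper, phF_lower, c14]
    congr 1
    push_cast
    rw [hbK]
    ring
  · show n0 K * phF hq hK (lower u) * (n0 K)⁻¹ =
      phF hq hK (RankOne.weyl * conjDg b (lower u) * RankOne.weyl⁻¹)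
    rw [conjDg_lower, (conjW _ _).2, phF_upper, phF_lower, c9]
    congr 1
    push_cast at hbK' ⊢
    rw [hbK']
    ring

include hq hK in
/-- An element `φ(s) σ(v)` with `v` of norm one. -/
theorem good_small {Allowed : SL2 (FF hq hK) → Prop} {v : Kˣ}
    (hN : v * v ^ q * (v ^ q) ^ q = 1) (s : SL2 (FF hq hK))
    (hfp : ∀ u ∈ UPG K q, u * (phF hq hK s * sigS q v) = phF hq hK s * sigS q v * u → u = 1)
    (hinv : ∀ b : (FF hq hK)ˣ, ∃ ν : SL2 (FF hq hK),
      ν * (RankOne.weyl * conjDg b s * RankOne.weyl⁻¹) * ν⁻¹ = s⁻¹)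
    (hcomm : ∀ μ, Allowed μ → ∃ ν σ : SL2 (FF hq hK), ν * μ * ν⁻¹ = s * σ * s⁻¹ * σ⁻¹) :
    GoodElt hq hK Allowed (phF hq hK s * sigS q v) := by
  obtain ⟨sG, sP, sM⟩ := sigS_norm hq hK v
  refine ⟨mul_mem (phF_mem hq hK s) sG, mul_mem (phF_norm hq hK s).1 sP,
    mul_mem (phF_norm hq hK s).2 sM, hfp, ?_, fun μ hμ => ?_⟩
  · obtain ⟨b, hb⟩ := n0_phF hq hK
    obtain ⟨ν, hν⟩ := hinv b
    refine ⟨phF hq hK ν * n0 K, mul_mem (phF_mem hq hK ν) (n0_mem hq hK), ?_,
      fun u hu => n0_exchange hq hK ν hu⟩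
    have h1 : n0 K * sigS q v * (n0 K)⁻¹ = (sigS q v)⁻¹ := n0_inverts _
    have h2 := (sigS_commute_phF hq hK hN ν).inv_left
    calc phF hq hK ν * n0 K * (phF hq hK s * sigS q v) * (phF hq hK ν * n0 K)⁻¹
        = phF hq hK ν * (n0 K * phF hq hK s * (n0 K)⁻¹) * (n0 K * sigS q v * (n0 K)⁻¹) *
            (phF hq hK ν)⁻¹ := by group
      _ = phF hq hK (ν * (RankOne.weyl * conjDg b s * RankOne.weyl⁻¹) * ν⁻¹) * (sigS q v)⁻¹ := by
          rw [hb, h1, mul_assoc _ (sigS q v)⁻¹, h2.inv_right.eq]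
          simp only [map_mul, map_inv]
          group
      _ = (phF hq hK s * sigS q v)⁻¹ := by
          rw [hν, mul_inv_rev, map_inv]
          exact ((sigS_commute_phF hq hK hN s).inv_left.inv_right).eq.symm
  · obtain ⟨ν, σ, e⟩ := hcomm μ hμ
    refine ⟨ν, σ, ?_⟩
    rw [e, map_mul, map_mul, map_mul, map_inv, map_inv]
    have h := (sigS_commute_phF hq hK hN σ).eq
    calc phF hq hK s * phF hq hK σ * (phF hq hK s)⁻¹ * (phF hq hK σ)⁻¹
        = phF hq hK s * (phF hq hK σ * sigS q v) * (sigS q v)⁻¹ * (phF hq hK s)⁻¹ *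
            (phF hq hK σ)⁻¹ := by group
      _ = _ := by rw [← h]; group

include hq hK in
/-- The case `q = 3`. -/
theorem three_case (p : ℕ) [Fact p.Prime] [CharP K p] (h3 : q = 3) :
    ∃ x ∈ twistedD4 K q, x ^ (4 * (q ^ 3 - 1)) = 1 ∧ ∀ g ∈ twistedD4 K q, g ≠ 1 →
      ∃ u ∈ twistedD4 K q, ∃ v ∈ twistedD4 K q, g = (u * x * u⁻¹) * (v * x * v⁻¹) := by
  have hcube : ∀ a : FF hq hK, a = 0 ∨ a = 1 ∨ a = -1 := by
    intro a
    have h : a ^ 3 = a := Subtype.ext (by
      push_cast; exact (congrArg (fun n => (a : K) ^ n) h3).symm.trans (pow_q_FF hq hK a))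
    have : a * ((a - 1) * (a + 1)) = 0 := by linear_combination h
    rcases mul_eq_zero.1 this with e | e
    · exact Or.inl e
    rcases mul_eq_zero.1 e with e | e
    · exact Or.inr (Or.inl (sub_eq_zero.1 e))
    · exact Or.inr (Or.inr (eq_neg_of_add_eq_zero_left e))
  have h3K : (3 : K) = 0 := by
    have h : ((Fintype.card K : ℕ) : K) = 0 := Nat.cast_card_eq_zero K
    rw [hK, h3, Nat.cast_pow, Nat.cast_ofNat] at h
    exact (pow_eq_zero_iff (show (3 : ℕ) ≠ 0 by norm_num)).1 h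
  have h3F : (3 : FF hq hK) = 0 := Subtype.ext h3K
  obtain ⟨v, hN, hv⟩ := exists_v hq hK
  set s : SL2 (FF hq hK) := RankOne.weyl
  set Allowed : SL2 (FF hq hK) → Prop := fun μ => μ = 1 ∨ μ = -1 ∨ μ.1 0 0 + μ.1 1 1 = 0
  have hA : AllowOK hq hK Allowed := by
    refine ⟨fun w => ⟨0, ?_⟩, 0, fun μ h => Or.inr (Or.inr h)⟩
    have e : RankOne.upper (0 : FF hq hK) = 1 := by
      refine Subtype.ext ?_
      simp [RankOne.upper, Matrix.one_fin_two]
    rw [e, mul_one]
    rcases hcube (w : FF hq hK) with h | h | h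
    · exact absurd h w.ne_zero
    · left
      refine Subtype.ext ?_
      simp [sdg, h, Matrix.one_fin_two]
    · right; left
      refine Subtype.ext ?_
      rw [Matrix.SpecialLinearGroup.coe_neg]
      simp [sdg, h, Matrix.one_fin_two]
  have hv' : ((v ^ 2) * (v ^ 2) ^ q * ((v ^ 2) ^ q) ^ q) = 1 := by
    rw [pow_right_comm v 2 q, pow_right_comm (v ^ q) 2 q, ← mul_pow, ← mul_pow, hN, one_pow]
  have hv4 : ((v ^ 2) ^ 2) ^ q ≠ (v ^ 2) ^ 2 := by
    rw [← pow_mul v 2 2]
    exact hv (2 * 2) (by norm_num) (by rw [h3]; norm_num)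
  have hm1 : (-1 : Kˣ) ^ q = -1 := by rw [h3]; exact Odd.neg_one_pow (by decide)
  have hne : (-1 : Kˣ) ≠ 1 := by
    intro e
    have e' : (-1 : K) = 1 := by simpa using congrArg Units.val e
    exact one_ne_zero (α := K) (by linear_combination h3K + e')
  have hgood : GoodElt hq hK Allowed (phF hq hK s * sigS q v) := by
    refine good_small hq hK hN s (fun u hu hcu => ?_) (fun b => ?_) fun μ hμ => ?_
    · have hx2 : phF hq hK s * sigS q v * (phF hq hK s * sigS q v) =
          torD4 K (cvw q (v ^ 2) (-1)) := by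
        rw [torD4_cvw, mul_assoc, ← mul_assoc (sigS q v), (sigS_commute_phF hq hK hN s).eq,
          mul_assoc, ← mul_assoc (phF hq hK s), ← map_mul, weyl_sq, phF_sdg, ← map_mul, ← pow_two,
          show Units.map (FF hq hK).subtype.toMonoidHom (-1) = (-1 : Kˣ) from Units.ext (by simp)]
        exact ((Commute.all _ _).map (torD4 K)).eq
      obtain ⟨f, hf, hsupp⟩ := tor_supp (L := upL) (by simp) (by decide) list_tbl.1
        (cvw q (v ^ 2) (-1)) (Subgroup.mem_inf.1 hu).1 (by
          rw [← hx2, mul_assoc, ← hcu, ← mul_assoc, ← hcu, mul_assoc])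
      rw [hf]
      exact (sysD4 K).P_zero (fun r hr => list_tbl.1 r hr) fun r hr =>
        hsupp r hr (chi_ne hK hv' hv4 hm1 hr fun _ => hne)
    · exact three_inv h3F b ((hcube (b : FF hq hK)).resolve_left b.ne_zero)
    · by_cases hs : IsScalar μ
      · rcases isScalar_cases hs with rfl | rfl
        · exact ⟨1, 1, by group⟩
        · obtain ⟨σ, hσ⟩ := three_neg_one h3F
          exact ⟨1, σ, by rw [hσ]; simp⟩
      · obtain ⟨ν, h00, h10⟩ := exists_conj_corner hs 1
        have htr : (ν * μ * ν⁻¹).1 0 0 + (ν * μ * ν⁻¹).1 1 1 = 0 := by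
          rw [sl_trace_conj]
          rcases hμ with e | e | e
          · exact absurd (by rw [e]; simp [IsScalar]) hs
          · exact absurd (by rw [e]; simp [IsScalar, Matrix.SpecialLinearGroup.coe_neg]) hs
          · exact e
        set g := (ν * μ * ν⁻¹).1 1 0 with hg
        have hg2 : g * g = 1 := by
          rcases hcube g with e | e | e
          · exact absurd e h10
          · rw [e, one_mul]
          · rw [e]; ring
        obtain ⟨σ, e00, e10, e11⟩ := three_comm h3F hg2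
        exact ⟨ν, σ, sl_ext (h00.trans e00.symm) e10.symm
          ((show (ν * μ * ν⁻¹).1 1 1 = -1 by linear_combination htr - h00).trans e11.symm) h10⟩
  refine ⟨phF hq hK s * sigS q v, hgood.mem, ?_,
    fun g hg hg1 => exists_two_conj hq hK hA hgood p hg hg1⟩
  have hs4 : s ^ 4 = 1 := by
    rw [show 4 = 2 * 2 by norm_num, pow_mul, pow_two s, weyl_sq, pow_two]
    refine Subtype.ext ?_
    rw [RankOne.sl_mul_val]
    simp [sdg, Matrix.one_fin_two]
  rw [((sigS_commute_phF hq hK hN s).symm).mul_pow, pow_mul, ← map_pow, hs4, map_one, one_pow,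
    one_mul, mul_comm 4, pow_mul, ← map_pow,
    show v ^ (q ^ 3 - 1) = 1 from Units.ext (by
      rw [Units.val_pow_eq_pow_val, ← hK, Units.val_one]
      exact FiniteField.pow_card_sub_one_eq_one _ v.ne_zero), map_one, one_pow]

include hq hK in
/-- The case `q = 2`. -/
theorem two_case (p : ℕ) [Fact p.Prime] [CharP K p] (h2 : q = 2) :
    ∃ x ∈ twistedD4 K q, x ^ (3 * (q ^ 3 - 1)) = 1 ∧ ∀ g ∈ twistedD4 K q, g ≠ 1 →
      ∃ u ∈ twistedD4 K q, ∃ v ∈ twistedD4 K q, g = (u * x * u⁻¹) * (v * x * v⁻¹) := by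
  have hsq : ∀ a : FF hq hK, a = 0 ∨ a = 1 := by
    intro a
    have h : a ^ 2 = a := Subtype.ext (by
      push_cast; exact (congrArg (fun n => (a : K) ^ n) h2).symm.trans (pow_q_FF hq hK a))
    have : a * (a - 1) = 0 := by linear_combination h
    exact (mul_eq_zero.1 this).imp id sub_eq_zero.1
  have h2K : (2 : K) = 0 := by
    have h : ((Fintype.card K : ℕ) : K) = 0 := Nat.cast_card_eq_zero K
    rw [hK, h2, Nat.cast_pow, Nat.cast_ofNat] at h
    exact (pow_eq_zero_iff (show (3 : ℕ) ≠ 0 by norm_num)).1 h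
  have h2F : (2 : FF hq hK) = 0 := Subtype.ext h2K
  have hm1 : (-1 : FF hq hK) = 1 := by linear_combination -h2F
  obtain ⟨v, hN, hv⟩ := exists_v hq hK
  set s : SL2 (FF hq hK) := RankOne.weyl * RankOne.upper 1 with hs
  obtain ⟨hs3, hsinv, hs00, hs10, hs11⟩ := two_facts h2F hs
  set Allowed : SL2 (FF hq hK) → Prop := fun μ => μ = 1 ∨ μ.1 0 0 + μ.1 1 1 = 1
  have hA : AllowOK hq hK Allowed := by
    refine ⟨fun w => ⟨0, Or.inl ?_⟩, 1, fun μ h => Or.inr h⟩
    have hw : (w : FF hq hK) = 1 := (hsq (w : FF hq hK)).resolve_left w.ne_zero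
    refine Subtype.ext ?_
    rw [RankOne.sl_mul_val]
    simp [sdg, RankOne.upper, hw, Matrix.one_fin_two]
  have hgood : GoodElt hq hK Allowed (phF hq hK s * sigS q v) := by
    refine good_small hq hK hN s (fun u hu hcu => ?_) (fun b => ?_) fun μ hμ => ?_
    · obtain ⟨huU, huG⟩ := Subgroup.mem_inf.1 hu
      have hx3 : (phF hq hK s * sigS q v) ^ 3 = torD4 K (cvw q (v ^ 3) 1) := by
        rw [((sigS_commute_phF hq hK hN s).symm).mul_pow, ← map_pow, hs3, map_one, one_mul,
          torD4_cvw, map_one, mul_one, map_pow]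
      have hc3 : Commute ((phF hq hK s * sigS q v) ^ 3) u := (Commute.symm hcu).pow_left 3
      rw [hx3] at hc3
      obtain ⟨f, hf, hsupp⟩ := tor_supp (L := upL) (by simp) (by decide) list_tbl.1
        (cvw q (v ^ 3) 1) huU hc3.eq
      have hv' : (v ^ 3) * (v ^ 3) ^ q * ((v ^ 3) ^ q) ^ q = 1 := by
        rw [pow_right_comm v 3 q, pow_right_comm (v ^ q) 3 q, ← mul_pow, ← mul_pow, hN, one_pow]
      have hv6 : ((v ^ 3) ^ 2) ^ q ≠ (v ^ 3) ^ 2 := by
        rw [← pow_mul v 3 2]
        exact hv (3 * 2) (by norm_num) (by rw [h2]; norm_num)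
      have htop : u ∈ NTop K := by
        rw [hf]
        refine (sysD4 K).P_mem (fun r hr => list_tbl.1 r hr) fun r hr h0 => ?_
        by_contra hne
        exact h0 (hsupp r hr (chi_ne hK hv' hv6 (one_pow q) hr fun h => absurd (by simpa using h) hne))
      obtain ⟨a, b, ha, hb, rfl⟩ := top_fixed hq hK htop (sig_fixed hq hK huG)
      obtain ⟨t1, t2, t3, t4, t5, t6, t7⟩ := top_tbl
      have hσ : ∀ r ∈ [22, 23], ∀ t : K,
          sigS q v * xGL chevD4 K r t * (sigS q v)⁻¹ = xGL chevD4 K r t := by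
        intro r hr t
        obtain ⟨e1, e2, hlt⟩ := t1 r hr
        rw [sigS, MonoidHom.comp_apply, torD4_conj _ hlt]
        have : chiD4 K (sMap q v) r = 1 := by
          show v ^ chevD4.cartan 0 r * (1 : Kˣ) ^ chevD4.cartan 1 r * (v ^ q) ^ chevD4.cartan 2 r *
            ((v ^ q) ^ q) ^ chevD4.cartan 3 r = 1
          rw [e1, e2, one_zpow, mul_one, ← mul_zpow, ← mul_zpow, hN, one_zpow]
        rw [this, Units.val_one, one_mul]
      have hη : ∀ η : ℤ, (η = 1 ∨ η = -1) → ∀ t : K, (η : K) * t = t := by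
        rintro η (rfl | rfl) t
        · simp
        · push_cast; linear_combination (-t) * h2K
      obtain ⟨η1, hη1, w22⟩ := nb_conj (K := K) (s := 22) (by omega)
      obtain ⟨η2, hη2, w23⟩ := nb_conj (K := K) (s := 23) (by omega)
      have r22 : chevD4.reflectRoot 1 22 = 23 := by decide +kernel
      have e22 : ∀ t : K, nb K * xGL chevD4 K 22 t * (nb K)⁻¹ = xGL chevD4 K 23 t := fun t => by
        rw [w22, r22, hη η1 hη1]
      have e23 : ∀ t : K, nb K * xGL chevD4 K 23 t * (nb K)⁻¹ = xGL chevD4 K 22 t := fun t => by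
        rw [w23, t5, hη η2 hη2]
      have e14 : xGL chevD4 K 14 1 * xGL chevD4 K 22 a * (xGL chevD4 K 14 1)⁻¹ =
          xGL chevD4 K 22 a * xGL chevD4 K 23 a := by
        have := D4Max.conj_x (K := K) (r := 14) (s := 22) (k := 23) (C := 1) (by omega) (by omega)
          (by omega) (by rw [t6]; omega) t2 (by omega) (by omega) (by rw [t6]; omega) t3 1 a
        simpa using this
      have e14' : xGL chevD4 K 14 1 * xGL chevD4 K 23 b * (xGL chevD4 K 14 1)⁻¹ =
          xGL chevD4 K 23 b :=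
        conj_x_none (by omega) (by omega) (by rw [t6]; omega) t3 1 b
      have hps : phF hq hK s = nb K * xGL chevD4 K 14 1 := by
        rw [hs, map_mul, phF_weyl, phF_upper]
        rfl
      have himg : (phF hq hK s * sigS q v) * (xGL chevD4 K 22 a * xGL chevD4 K 23 b) *
          (phF hq hK s * sigS q v)⁻¹ = xGL chevD4 K 22 (a + b) * xGL chevD4 K 23 a := by
        rw [hps]
        calc nb K * xGL chevD4 K 14 1 * sigS q v * (xGL chevD4 K 22 a * xGL chevD4 K 23 b) *
              (nb K * xGL chevD4 K 14 1 * sigS q v)⁻¹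
            = nb K * ((xGL chevD4 K 14 1 * (sigS q v * xGL chevD4 K 22 a * (sigS q v)⁻¹) *
                (xGL chevD4 K 14 1)⁻¹) * (xGL chevD4 K 14 1 *
                (sigS q v * xGL chevD4 K 23 b * (sigS q v)⁻¹) * (xGL chevD4 K 14 1)⁻¹)) *
              (nb K)⁻¹ := by group
          _ = (nb K * xGL chevD4 K 22 a * (nb K)⁻¹) * (nb K * xGL chevD4 K 23 a * (nb K)⁻¹) *
              (nb K * xGL chevD4 K 23 b * (nb K)⁻¹) := by
            rw [hσ 22 (by simp), hσ 23 (by simp), e14, e14']; group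
          _ = xGL chevD4 K 23 a * (xGL chevD4 K 22 a * xGL chevD4 K 22 b) := by
            rw [e22, e23, e23, mul_assoc]
          _ = _ := by
            rw [show xGL chevD4 K 22 a * xGL chevD4 K 22 b = xGL chevD4 K 22 (a + b) from
              (sysD4 K).x_add 22 (by decide) a b]
            exact (x_commute (sysD4 K) (show 22 < chevD4.nroots by decide)
              (show 23 < chevD4.nroots by decide) (by omega) (by rw [t7]; omega) t4 _ _).eq.symm
      rw [← hcu, mul_inv_cancel_right] at himg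
      have hE : Enum ({22, 23} : Set ℕ) [22, 23] := ⟨by simp, fun r => by simp⟩
      have key := (sysD4 K).coef_unique (rootD4 K) top_closed hE
        (t := fun r => if r = 22 then a else b) (t' := fun r => if r = 22 then a + b else a)
        (congrArg (sysD4 K).θ (by simp [Sys.P]; exact himg))
      have k1 : a = a + b := by simpa using key 22 (by simp)
      have k2 : b = a := by simpa using key 23 (by simp)
      have hb0 : b = 0 := by linear_combination -k1
      rw [← k2, hb0]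
      show (sysD4 K).x 22 0 * (sysD4 K).x 23 0 = 1
      rw [(sysD4 K).x_zero (by decide), (sysD4 K).x_zero (by decide), one_mul]
    · refine ⟨1, ?_⟩
      obtain rfl : b = 1 := Units.ext ((hsq (b : FF hq hK)).resolve_left b.ne_zero)
      rw [one_mul, inv_one, mul_one, hsinv]
    · by_cases hsc : IsScalar μ
      · rcases isScalar_cases hsc with rfl | rfl
        · exact ⟨1, 1, by group⟩
        · refine ⟨1, 1, Subtype.ext ?_⟩
          simp only [one_mul, inv_one, mul_one, mul_inv_cancel, Matrix.SpecialLinearGroup.coe_neg,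
            Matrix.SpecialLinearGroup.coe_one]
          ext i j
          fin_cases i <;> fin_cases j <;> simp [hm1]
      · obtain ⟨ν, h00, h10⟩ := exists_conj_corner hsc 1
        have htr : (ν * μ * ν⁻¹).1 0 0 + (ν * μ * ν⁻¹).1 1 1 = 1 := by
          rw [sl_trace_conj]
          rcases hμ with e | e
          · exact absurd (by rw [e]; simp [IsScalar]) hsc
          · exact e
        exact ⟨ν, RankOne.weyl, sl_ext (h00.trans hs00.symm)
          (((hsq _).resolve_left h10).trans hs10.symm)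
          ((show (ν * μ * ν⁻¹).1 1 1 = 0 by linear_combination htr - h00).trans hs11.symm) h10⟩
  refine ⟨phF hq hK s * sigS q v, hgood.mem, ?_,
    fun g hg hg1 => exists_two_conj hq hK hA hgood p hg hg1⟩
  rw [((sigS_commute_phF hq hK hN s).symm).mul_pow, pow_mul, ← map_pow, hs3, map_one, one_pow,
    one_mul, mul_comm 3, pow_mul, ← map_pow,
    show v ^ (q ^ 3 - 1) = 1 from Units.ext (by
      rw [Units.val_pow_eq_pow_val, ← hK, Units.val_one]
      exact FiniteField.pow_card_sub_one_eq_one _ v.ne_zero), map_one, one_pow]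

end Cfsg.Agent.TriCC
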