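import Cfsg.Agent.TriCC.Split

/-!
# Elements of the short cells of ³D₄(q) conjugate into `U⁻ SL₂(q) U⁺`
-/

set_option autoImplicit false
set_option linter.unusedSectionVars false

namespace Cfsg.Agent.TriCC

open Cfsg.Lie Cfsg.Agent.ChevGrp Cfsg.Agent.Chev Cfsg.Agent.ChevTw Cfsg.Agent.ChevTw.D4Torus
  Cfsg.Agent.ChevTw.D4Max

variable {K : Type*} [Field K] [Fintype K] {q : ℕ} (hq : IsPrimePow q) (hK : Fintype.card K = q ^ 3)

/-- Conjugate into `U⁻ φ(μ) U⁺` with `μ` allowed. -/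
def Tgt (Allowed : SL2 (FF hq hK) → Prop) (g : GK K) : Prop :=
  ∃ y ∈ twistedD4 K q, ∃ A ∈ UMG K q, ∃ B ∈ UPG K q, ∃ μ, Allowed μ ∧
    y * g * y⁻¹ = A * phF hq hK μ * B

theorem Tgt.of_conj {Allowed : SL2 (FF hq hK) → Prop} {g : GK K} {y : GK K}
    (hy : y ∈ twistedD4 K q) (h : Tgt hq hK Allowed (y * g * y⁻¹)) : Tgt hq hK Allowed g := by
  obtain ⟨z, hz, A, hA, B, hB, μ, hμ, e⟩ := h
  refine ⟨z * y, mul_mem hz hy, A, hA, B, hB, μ, hμ, ?_⟩
  rw [← e]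
  group

/-- The conditions on the allowed elements. -/
structure AllowOK (Allowed : SL2 (FF hq hK) → Prop) : Prop where
  diag : ∀ w : (FF hq hK)ˣ, ∃ c : FF hq hK, Allowed (sdg w * RankOne.upper c)
  trace : ∃ τ : FF hq hK, ∀ μ : SL2 (FF hq hK), μ.1 0 0 + μ.1 1 1 = τ → Allowed μ

/-- The character on the long simple root of the one-dimensional torus. -/
noncomputable def chiF (s : Kˣ) : (FF hq hK)ˣ :=
  Units.mk0 ⟨(chiD4 K (sMap q s) 14 : Kˣ), (mem_FF hq hK).2 (by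
    rw [← Units.val_pow_eq_pow_val]
    congr 1
    obtain ⟨-, -, -, h3⟩ := (mem_mkD4_iff (sMap q s)).1 (sMap_mem hK s)
    rw [(chi_14 (sMap q s)).1]
    simp only [sMap, MonoidHom.coe_mk, OneHom.coe_mk, mkD4, List.getD_cons_zero,
      List.getD_cons_succ, one_pow, mul_one, mul_pow, inv_pow]
    rw [units_pow_cube hK s]
    ac_rfl)⟩
    fun h => (chiD4 K (sMap q s) 14).ne_zero (congrArg Subtype.val h)

theorem sigS_conj_phF (s : Kˣ) (μ : SL2 (FF hq hK)) :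
    sigS q s * phF hq hK μ * (sigS q s)⁻¹ = phF hq hK (conjDg (chiF hq hK s) μ) := by
  rw [phF_apply, phF_apply, map_conjDg, sigS, MonoidHom.comp_apply, tor_conj_phA]
  congr 3
  exact Units.ext rfl

theorem phF_sdg (w : (FF hq hK)ˣ) :
    phF hq hK (sdg w) = hzero (Units.map (FF hq hK).subtype.toMonoidHom w) := by
  rw [phF_apply, map_sdg, phA_sdg]

theorem upper_weyl {F : Type*} [Field F] (k : Fˣ) :
    RankOne.upper (k : F) * RankOne.weyl =
      (lower (k : F)⁻¹ * sdg (-k) * RankOne.upper (-(k : F)⁻¹) : SL2 F) := by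
  refine Subtype.ext ?_
  rw [RankOne.sl_mul_val, RankOne.sl_mul_val, RankOne.sl_mul_val]
  simp only [RankOne.upper, RankOne.weyl, lower, sdg]
  ext i j
  fin_cases i <;> fin_cases j <;> simp

theorem upper_weyl_inv {F : Type*} [Field F] :
    RankOne.upper (1 : F) * (RankOne.weyl)⁻¹ = (lower 1 * RankOne.upper (-1) : SL2 F) := by
  refine Subtype.ext ?_
  rw [RankOne.sl_mul_val, RankOne.sl_mul_val, Matrix.SpecialLinearGroup.coe_inv]
  simp [RankOne.upper, RankOne.weyl, lower, Matrix.adjugate_fin_two]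

include hq hK in
/-- `Y(-v⁻¹) na = Y⁻(-v) σ(v)⁻¹ Y(v)`. -/
theorem Y1_na (v : Kˣ) :
    Y1 q (-(v : K)⁻¹) * na K = Yn q (-(v : K)) * (sigS q v)⁻¹ * Y1 q (v : K) := by
  have e := congrArg (phB hq hK) (upper_weyl (-v⁻¹ : Kˣ))
  rw [map_mul, map_mul, map_mul, phB_upper, phB_weyl, phB_lower, phB_sdg, phB_upper, neg_neg,
    map_inv] at e
  simpa [inv_neg] using e

include hq hK in
theorem Y1_one_na_inv : Y1 q (1 : K) * (na K)⁻¹ = Yn q (1 : K) * Y1 q (-1 : K) := by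
  have e := congrArg (phB hq hK) (upper_weyl_inv (F := K))
  rwa [map_mul, map_mul, map_inv, phB_upper, phB_weyl, phB_lower, phB_upper] at e

theorem Y1_mem_UPG (t : K) : Y1 q t ∈ UPG K q :=
  Subgroup.mem_inf.2 ⟨Y1_mem_UL t, Y1_mem t⟩

theorem Yn_mem_UMG (t : K) : Yn q t ∈ UMG K q :=
  Subgroup.mem_inf.2 ⟨Yn_mem_UL t, Yn_mem t⟩

include hq hK in
theorem sigS_norm (v : Kˣ) : sigS q v ∈ twistedD4 K q ∧ sigS q v ∈ NL K upL ∧
    sigS q v ∈ NL K umL :=
  ⟨sigS_mem hq hK v, tor_norm (torD4_mem_Hbar _) list_tbl.1,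
    tor_norm (torD4_mem_Hbar _) list_tbl.2.1⟩

/-- Moving an element of `U⁺` to the right. -/
theorem exists_right {m p : GK K} (hm : m ∈ NL K upL) (hmG : m ∈ twistedD4 K q)
    (hp : p ∈ UPG K q) : ∃ p' ∈ UPG K q, p * m = m * p' :=
  ⟨m⁻¹ * p * m, by simpa using conj_mem_UPG (inv_mem hm) (inv_mem hmG) hp, by group⟩

include hq hK in
/-- An element of the Borel subgroup as torus times unipotent. -/
theorem borel_split {b : GK K} (hb : b ∈ (sysD4 K).Bbar) (hG : b ∈ twistedD4 K q) :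
    ∃ v : Kˣ, ∃ w : (FF hq hK)ˣ, ∃ u ∈ (sysD4 K).Ubar, u ∈ twistedD4 K q ∧
      b = sigS q v * phF hq hK (sdg w) * u := by
  have hR := rootD4 K
  have hl := twD4_ok.isLongest (T := twistD4 hq hK) (fun _ => rfl) rfl
  obtain ⟨u, hu, h, hh, rfl⟩ := (grpD4 hq hK).B_decomp (rulesD4 K) hR
    ((orbD4 hq hK).comm_word hR twD4.longSeq) (hl.invSet_eq hR) hb hG
  obtain ⟨hh1, hh2⟩ := Subgroup.mem_inf.1 hh
  obtain ⟨hu1, hu2⟩ := Subgroup.mem_inf.1 hu
  obtain ⟨v, w, e⟩ := exists_tor hq hK hh1 hh2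
  refine ⟨v, w, h⁻¹ * u * h, ?_, mul_mem (mul_mem (inv_mem hh2) hu2) hh2, ?_⟩
  · exact (Subgroup.mem_normalizer_iff''.1
      ((sysD4 K).Hbar_le_normalizer_Ubar (rulesD4 K) hR hh1) u).1 hu1
  · rw [phF_sdg, ← e]
    group

variable {Allowed : SL2 (FF hq hK) → Prop}

/-- The cell of the short simple reflection. -/
theorem cell_short (hA : AllowOK hq hK Allowed) {b : GK K} (hb : b ∈ (sysD4 K).Bbar)
    (hG : b ∈ twistedD4 K q) : Tgt hq hK Allowed (na K * b) := by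
  obtain ⟨v, w, u, hu, huG, rfl⟩ := borel_split hq hK hb hG
  obtain ⟨c, p, hp, rfl⟩ := split_alpha hq hK hu huG
  obtain ⟨c0, hc0⟩ := hA.diag w
  obtain ⟨⟨η, hη0, hηq, hη⟩, -⟩ := weyl_long hq hK
  set δ : FF hq hK := c - c0 with hδ
  set X := xGL chevD4 K 14 (δ : K) with hX
  have hXG : X ∈ twistedD4 K q := long_mem hq hK (by simp) (pow_q_FF hq hK δ)
  have hXN : X ∈ NL K upL := NL_x (by simp [qL]) _
  set e := xGL chevD4 K 22 (η⁻¹ * (δ : K)) with he
  have hX' : X = na K * e * (na K)⁻¹ := by rw [he, hη, mul_inv_cancel_left₀ hη0]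
  have heP : e ∈ UPG K q := Subgroup.mem_inf.2 ⟨xU_mem (by simp [upL]) _,
    long_mem hq hK (by simp) (by rw [mul_pow, inv_pow, hηq, pow_q_FF hq hK δ])⟩
  set T := sigS q v * phF hq hK (sdg w) * xGL chevD4 K 14 (c : K) with hT
  obtain ⟨sG, sP, -⟩ := sigS_norm hq hK v
  have hcG : xGL chevD4 K 14 (c : K) ∈ twistedD4 K q := long_mem hq hK (by simp) (pow_q_FF hq hK c)
  obtain ⟨e', he', ee⟩ := exists_right (m := T)
    (mul_mem (mul_mem sP (phF_norm hq hK _).1) (NL_x (by simp [qL]) _))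
    (mul_mem (mul_mem sG (phF_mem hq hK _)) hcG) heP
  have h1 : X * (e' * p) * X⁻¹ ∈ UPG K q := conj_mem_UPG hXN hXG (mul_mem he' hp)
  -- first conjugation
  refine Tgt.of_conj hq hK hXG ?_
  set μ := sdg w * RankOne.upper c0 with hμ
  have hTX : T * X⁻¹ = sigS q v * phF hq hK μ := by
    rw [hT, hμ, map_mul, phF_upper, mul_assoc, mul_assoc (sigS q v)]
    congr 2
    show (sysD4 K).x 14 (c : K) * ((sysD4 K).x 14 (δ : K))⁻¹ = (sysD4 K).x 14 (c0 : K)
    rw [(sysD4 K).x_inv (by decide), (sysD4 K).x_add 14 (by decide), hδ]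
    congr 1
    push_cast
    ring
  have z1 : X * (na K * (sigS q v * phF hq hK (sdg w) * (xGL chevD4 K 14 (c : K) * p))) * X⁻¹ =
      na K * (sigS q v * phF hq hK μ) * (X * (e' * p) * X⁻¹) := by
    rw [← hTX]
    calc X * (na K * (sigS q v * phF hq hK (sdg w) * (xGL chevD4 K 14 (c : K) * p))) * X⁻¹
        = X * na K * T * p * X⁻¹ := by rw [hT]; group
      _ = na K * (e * T) * p * X⁻¹ := by conv_lhs => arg 1; arg 1; arg 1; arg 1; rw [hX']
                                         group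
      _ = _ := by rw [ee]; group
  rw [z1]
  -- second conjugation
  set k : K := -(v : K)⁻¹ with hk
  refine ⟨Y1 q k, Y1_mem k, Yn q (-(v : K)), Yn_mem_UMG _, ?_⟩
  obtain ⟨p1, hp1, e1⟩ := exists_right (m := sigS q v * phF hq hK μ)
    (mul_mem sP (phF_norm hq hK _).1) (mul_mem sG (phF_mem hq hK _)) (Y1_mem_UPG (q := q) (v : K))
  refine ⟨p1 * (X * (e' * p) * X⁻¹) * (Y1 q k)⁻¹,
    mul_mem (mul_mem hp1 h1) (inv_mem (Y1_mem_UPG k)), μ, hc0, ?_⟩
  calc Y1 q k * (na K * (sigS q v * phF hq hK μ) * (X * (e' * p) * X⁻¹)) * (Y1 q k)⁻¹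
      = (Y1 q k * na K) * (sigS q v * phF hq hK μ) * (X * (e' * p) * X⁻¹) * (Y1 q k)⁻¹ := by group
    _ = Yn q (-(v : K)) * (sigS q v)⁻¹ * (Y1 q (v : K) * (sigS q v * phF hq hK μ)) *
          (X * (e' * p) * X⁻¹) * (Y1 q k)⁻¹ := by rw [hk, Y1_na hq hK]; group
    _ = _ := by rw [e1]; group

/-- The cell of the product of the two simple reflections. -/
theorem cell_short_long (hA : AllowOK hq hK Allowed) {b : GK K} (hb : b ∈ (sysD4 K).Bbar)
    (hG : b ∈ twistedD4 K q) : Tgt hq hK Allowed (na K * nb K * b) := by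
  obtain ⟨v, w, u, hu, huG, rfl⟩ := borel_split hq hK hb hG
  obtain ⟨c, p, hp, rfl⟩ := split_alpha hq hK hu huG
  obtain ⟨τ, hτ⟩ := hA.trace
  set χ := chiF hq hK v⁻¹ with hχ
  set k2 : FF hq hK := (-τ - (w : FF hq hK) * c * ((χ⁻¹ : (FF hq hK)ˣ) : FF hq hK)) *
    ((w⁻¹ : (FF hq hK)ˣ) : FF hq hK) with hk2
  set μ := conjDg χ (RankOne.upper k2 * RankOne.weyl) * (sdg w * RankOne.upper c) with hμ
  have hμA : Allowed μ := by
    refine hτ μ ?_
    rw [hμ, RankOne.sl_mul_val, conjDg_val, RankOne.sl_mul_val, RankOne.sl_mul_val]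
    simp [RankOne.upper, RankOne.weyl, sdg, hk2]
    field_simp
    ring
  set k : K := -(v : K)⁻¹ with hk
  set X := xGL chevD4 K 14 (k2 : K) with hX
  have hXG : X ∈ twistedD4 K q := long_mem hq hK (by simp) (pow_q_FF hq hK k2)
  have hE : na K * X * (na K)⁻¹ ∈ UPG K q := by
    obtain ⟨η, -, hη⟩ := na_conj (K := K) (s := 14) (by omega)
    refine Subgroup.mem_inf.2 ⟨?_, mul_mem (mul_mem (na_mem hq hK) hXG) (inv_mem (na_mem hq hK))⟩
    rw [hX, hη, wA_facts.1]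
    exact xU_mem (by simp [upL]) _
  set V := Y1 q k * (na K * X * (na K)⁻¹) with hV
  have hVP : V ∈ UPG K q := mul_mem (Y1_mem_UPG k) hE
  refine ⟨V, (Subgroup.mem_inf.1 hVP).2, Yn q (-(v : K)), Yn_mem_UMG _, ?_⟩
  obtain ⟨sG, sP, -⟩ := sigS_norm hq hK v
  set m := phF hq hK (RankOne.upper k2 * RankOne.weyl) * sigS q v *
    phF hq hK (sdg w * RankOne.upper c) with hm
  obtain ⟨p1, hp1, e1⟩ := exists_right (m := m)
    (mul_mem (mul_mem (phF_norm hq hK _).1 sP) (phF_norm hq hK _).1)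
    (mul_mem (mul_mem (phF_mem hq hK _) sG) (phF_mem hq hK _)) (Y1_mem_UPG (q := q) (v : K))
  refine ⟨p1 * p * V⁻¹, mul_mem (mul_mem hp1 hp) (inv_mem hVP), μ, hμA, ?_⟩
  have eμ : (sigS q v)⁻¹ * m = phF hq hK μ := by
    rw [hμ, map_mul, ← sigS_conj_phF, map_inv, hm]
    group
  have em : X * nb K * (sigS q v * phF hq hK (sdg w) * xGL chevD4 K 14 (c : K)) = m := by
    rw [hm, hX]
    simp only [map_mul, phF_upper, phF_weyl, mul_assoc]
  calc V * (na K * nb K * (sigS q v * phF hq hK (sdg w) * (xGL chevD4 K 14 (c : K) * p))) * V⁻¹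
      = (Y1 q k * na K) * (X * nb K * (sigS q v * phF hq hK (sdg w) *
          xGL chevD4 K 14 (c : K))) * p * V⁻¹ := by rw [hV]; group
    _ = Yn q (-(v : K)) * (sigS q v)⁻¹ * (Y1 q (v : K) * m) * p * V⁻¹ := by
        rw [em, hk, Y1_na hq hK]; group
    _ = _ := by rw [e1, ← eμ]; group

/-- The cell of the long simple reflection. -/
theorem cell_long (hA : AllowOK hq hK Allowed) {b : GK K} (hb : b ∈ (sysD4 K).Bbar)
    (hG : b ∈ twistedD4 K q) : Tgt hq hK Allowed (nb K * b) := by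
  have hR := rootD4 K
  have hnaG := na_mem hq hK
  have hnbG := nb_mem hq hK
  have hnaQ : na K ∈ NL K qL := by rw [← phB_weyl hq hK]; exact phB_norm hq hK _
  have hnbU : nb K ∈ NL K upL ∧ nb K ∈ NL K umL := by rw [← phF_weyl hq hK]; exact phF_norm hq hK _
  obtain ⟨v, w, u, hu, huG, rfl⟩ := borel_split hq hK hb hG
  obtain ⟨a, ha, r, rfl⟩ := split_beta hq hK hu huG
  set t := sigS q v * phF hq hK (sdg w) with ht
  have htH : t ∈ (sysD4 K).Hbar := by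
    rw [ht, phF_sdg]
    simp only [sigS, hzero, MonoidHom.comp_apply]
    exact mul_mem (torD4_mem_Hbar _) (torD4_mem_Hbar _)
  have htG : t ∈ twistedD4 K q := mul_mem (sigS_mem hq hK v) (phF_mem hq hK _)
  -- make the unipotent part lie in `Q`
  refine Tgt.of_conj hq hK (Y1_mem r) ?_
  have hq' : t⁻¹ * ((nb K)⁻¹ * Y1 q r * nb K) * t * a ∈ QG K q := by
    refine mul_mem ?_ ha
    have := conj_mem_QG (inv_mem (tor_norm htH list_tbl.2.2.1)) (inv_mem htG) (nb_Y1_inv hq hK r)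
    simpa using this
  set q' := t⁻¹ * ((nb K)⁻¹ * Y1 q r * nb K) * t * a with hq'def
  rw [show Y1 q r * (nb K * (t * (a * Y1 q r))) * (Y1 q r)⁻¹ = nb K * t * q' by
    rw [hq'def]; group]
  -- the new torus element
  have ht'H : na K * t * (na K)⁻¹ ∈ (sysD4 K).Hbar := Sys.conj_mem_Hbar (rulesD4 K) hR
    (mul_mem ((sysD4 K).nI_mem_Nbar _) (mul_mem ((sysD4 K).nI_mem_Nbar _)
      ((sysD4 K).nI_mem_Nbar _))) htH
  obtain ⟨v', w', ht'⟩ := exists_tor hq hK ht'H (mul_mem (mul_mem hnaG htG) (inv_mem hnaG))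
  rw [← phF_sdg] at ht'
  have hR0 : na K * q' * (na K)⁻¹ ∈ QG K q := conj_mem_QG hnaQ hnaG hq'
  obtain ⟨f0, p2, hp2, eR0⟩ := split_alpha hq hK (qL_le (Subgroup.mem_inf.1 hR0).1)
    (Subgroup.mem_inf.1 hR0).2
  -- the element moved through `Y⁻(1)`
  have hy2 : (Yn q (1 : K))⁻¹ * ((nb K)⁻¹ * Y1 q (v' : K) * nb K) * Yn q (1 : K) ∈ QG K q := by
    have hY : Yn q (1 : K) ∈ NL K qL := by rw [← phB_lower hq hK]; exact phB_norm hq hK _
    have := conj_mem_QG (inv_mem hY) (inv_mem (Yn_mem (1 : K))) (nb_Y1_inv hq hK (v' : K))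
    simpa using this
  obtain ⟨β, p1, hp1, ey2⟩ := split_alpha hq hK (qL_le (Subgroup.mem_inf.1 hy2).1)
    (Subgroup.mem_inf.1 hy2).2
  obtain ⟨τ, hτ⟩ := hA.trace
  set χ := chiF hq hK v'⁻¹ with hχ
  set e : FF hq hK := -β - (w' : FF hq hK) * τ -
    (w' : FF hq hK) * (w' : FF hq hK) * f0 * ((χ⁻¹ : (FF hq hK)ˣ) : FF hq hK) with he
  set μ := conjDg χ (RankOne.weyl * RankOne.upper β * RankOne.upper e) *
    (sdg w' * RankOne.upper f0) with hμ
  have hμA : Allowed μ := by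
    refine hτ μ ?_
    rw [hμ, RankOne.sl_mul_val, conjDg_val, RankOne.sl_mul_val, RankOne.sl_mul_val,
      RankOne.sl_mul_val]
    simp [RankOne.upper, RankOne.weyl, sdg, he]
    field_simp
    ring
  obtain ⟨⟨η, hη0, hηq, hη⟩, η', hη'0, hη'q, hη'⟩ := weyl_long hq hK
  -- conjugate by the centre and by `na`
  set d : K := (e : K) / η with hd
  have hdq : d ^ q = d := by rw [hd, div_pow, hηq, pow_q_FF hq hK e]
  set δ : K := d / η' with hδ
  set D := xGL chevD4 K 23 δ with hD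
  have hDG : D ∈ twistedD4 K q :=
    long_mem hq hK (by simp) (by rw [hδ, div_pow, hη'q, hdq])
  set E := xGL chevD4 K 22 d with hE
  have hDE : D = nb K * E * (nb K)⁻¹ := by
    have e1 : E = (nb K)⁻¹ * D * nb K := by
      rw [hE, hD, hη', hδ, mul_div_cancel₀ d hη'0]
    rw [e1]
    group
  have hEe : na K * E * (na K)⁻¹ = phF hq hK (RankOne.upper e) := by
    rw [phF_upper, hE, hη, hd, mul_div_cancel₀ (e : K) hη0]
  have hDP : na K * D⁻¹ * (na K)⁻¹ ∈ UPG K q := by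
    obtain ⟨ζ, -, hζ⟩ := na_conj (K := K) (s := 23) (by omega)
    refine Subgroup.mem_inf.2 ⟨?_, mul_mem (mul_mem hnaG (inv_mem hDG)) (inv_mem hnaG)⟩
    have : na K * D⁻¹ * (na K)⁻¹ = (na K * D * (na K)⁻¹)⁻¹ := by group
    rw [this, hD, hζ, wA_facts.2.2.1]
    exact inv_mem (xU_mem (by simp [upL]) _)
  refine Tgt.of_conj hq hK hDG ?_
  refine Tgt.of_conj hq hK hnaG ?_
  set N := na K * nb K * (na K)⁻¹ with hN
  set M := phF hq hK (RankOne.upper e) * sigS q v' * phF hq hK (sdg w' * RankOne.upper f0) with hM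
  set p3 := p2 * (na K * D⁻¹ * (na K)⁻¹) with hp3
  have hp3P : p3 ∈ UPG K q := mul_mem hp2 hDP
  have z : na K * (D * (nb K * t * q') * D⁻¹) * (na K)⁻¹ = N * M * p3 := by
    calc na K * (D * (nb K * t * q') * D⁻¹) * (na K)⁻¹
        = N * (na K * E * (na K)⁻¹) * (na K * t * (na K)⁻¹) * (na K * q' * (na K)⁻¹) *
            (na K * D⁻¹ * (na K)⁻¹) := by
          rw [hN]; conv_lhs => arg 1; arg 2; arg 1; arg 1; rw [hDE]
          group
      _ = _ := by rw [hEe, ht', eR0, hM, hp3, map_mul, phF_upper hq hK f0]; group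
  rw [z]
  set k : K := -(v' : K)⁻¹ with hk
  set V := Y1 q k * (na K * (nb K * Y1 q (1 : K) * (nb K)⁻¹) * (na K)⁻¹) with hV
  have hVP : V ∈ UPG K q := mul_mem (Y1_mem_UPG k) (na_nb_Y1 hq hK _)
  obtain ⟨sG, sP, sM⟩ := sigS_norm hq hK v'
  set P1 := p1 * Y1 q (-1 : K) with hP1
  obtain ⟨p4, hp4, e4⟩ := exists_right (m := M)
    (mul_mem (mul_mem (phF_norm hq hK _).1 sP) (phF_norm hq hK _).1)
    (mul_mem (mul_mem (phF_mem hq hK _) sG) (phF_mem hq hK _))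
    (mul_mem hp1 (Y1_mem_UPG (q := q) (-1 : K)) : P1 ∈ UPG K q)
  set A2 := (sigS q v')⁻¹ * (nb K * Yn q (1 : K) * (nb K)⁻¹) * sigS q v' with hA2
  have hA2M : A2 ∈ UMG K q := by
    have := conj_mem_UMG (inv_mem sM) (inv_mem sG)
      (conj_mem_UMG hnbU.2 hnbG (Yn_mem_UMG (q := q) (1 : K)))
    simpa [hA2] using this
  refine ⟨V, (Subgroup.mem_inf.1 hVP).2, Yn q (-(v' : K)) * A2,
    mul_mem (Yn_mem_UMG _) hA2M, p4 * p3 * V⁻¹, mul_mem (mul_mem hp4 hp3P) (inv_mem hVP), μ,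
    hμA, ?_⟩
  have eμ : phF hq hK μ = (sigS q v')⁻¹ * nb K * xGL chevD4 K 14 (β : K) * M := by
    rw [hμ, map_mul, ← sigS_conj_phF, map_inv, map_mul, map_mul, phF_weyl, phF_upper, hM]
    group
  calc V * (N * M * p3) * V⁻¹
      = (Y1 q k * na K) * nb K * (Y1 q (1 : K) * (na K)⁻¹) * M * p3 * V⁻¹ := by
        rw [hV, hN]; group
    _ = Yn q (-(v' : K)) * (sigS q v')⁻¹ * nb K * Yn q (1 : K) *
          ((Yn q (1 : K))⁻¹ * ((nb K)⁻¹ * Y1 q (v' : K) * nb K) * Yn q (1 : K)) *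
          Y1 q (-1 : K) * M * p3 * V⁻¹ := by
        rw [hk, Y1_na hq hK, Y1_one_na_inv hq hK]; group
    _ = Yn q (-(v' : K)) * A2 * (sigS q v')⁻¹ * nb K * xGL chevD4 K 14 (β : K) * (P1 * M) * p3 *
          V⁻¹ := by
        rw [ey2, hP1, hA2]; group
    _ = _ := by rw [e4, eμ]; group

end Cfsg.Agent.TriCC
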