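import Cfsg.Agent.FeitHigman.Operators
import Cfsg.Agent.BNPair.RankTwo
import Mathlib.LinearAlgebra.Matrix.Charpoly.FiniteField

/-!
# Every class of a group with a BN-pair of type G₂ meets a short double coset

For a BN-pair whose Weyl group is dihedral of order twelve and whose parameters are divisible by the
prime `p`, every element has a conjugate in `B`, `BsB`, `BtB` or `BstB`.
-/

set_option autoImplicit false

namespace Cfsg.Agent.TriCC

open Cfsg.Agent.BNPair Cfsg.Agent.FeitHigman Matrix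

variable {G : Type*} [Group G] (P : Cfsg.BNPair G) [Fintype (G ⧸ P.B)] (p : ℕ) [Fact p.Prime]

/-- The double coset operator modulo `p`. -/
noncomputable def tz (w : W P) : Matrix (G ⧸ P.B) (G ⧸ P.B) (ZMod p) :=
  haveI := Classical.decEq (W P)
  Matrix.of fun x y => if rel P x y = w then 1 else 0

theorem tz_apply (w : W P) (x y : G ⧸ P.B) [Decidable (rel P x y = w)] :
    tz P p w x y = if rel P x y = w then 1 else 0 := by
  simp only [tz, Matrix.of_apply]
  split_ifs <;> rfl

variable [DecidableEq (G ⧸ P.B)] [DecidableEq (W P)]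

theorem tz_one : tz P p 1 = 1 := by
  ext x y
  simp only [tz_apply, rel_eq_one, Matrix.one_apply]

theorem tz_mul_apply (v w : W P) (x y : G ⧸ P.B) :
    (tz P p v * tz P p w) x y =
      ((Finset.univ.filter fun z : G ⧸ P.B => rel P x z = v ∧ rel P z y = w).card : ZMod p) := by
  simp only [Matrix.mul_apply, tz_apply, ite_mul, one_mul, zero_mul, ← ite_and]
  rw [Finset.sum_boole]

theorem tz_mul_left (u : P.S) (w : W P) (h : len P w < len P (σ P u * w)) :
    tz P p (σ P u * w) = tz P p (σ P u) * tz P p w := by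
  ext x y
  rw [tz_mul_apply, tz_apply]
  split_ifs with hxy
  · obtain ⟨z, hz, huniq⟩ := existsUnique_mid P u w h hxy
    have : (Finset.univ.filter fun z : G ⧸ P.B => rel P x z = σ P u ∧ rel P z y = w) = {z} := by
      ext z'
      simp only [Finset.mem_filter, Finset.mem_univ, true_and, Finset.mem_singleton]
      exact ⟨huniq z', fun e => e ▸ hz⟩
    rw [this]; simp
  · have : (Finset.univ.filter fun z : G ⧸ P.B => rel P x z = σ P u ∧ rel P z y = w) = ∅ := by
      refine Finset.filter_eq_empty_iff.2 fun z _ ⟨h1, h2⟩ => hxy ?_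
      rw [rel_of_le P u y h1 (by rw [h2]; exact h.le), h2]
    rw [this]; simp

/-- The parameters are divisible by `p`. -/
def PDvd : Prop :=
  ∀ u : P.S,
    p ∣ (Finset.univ.filter fun y : G ⧸ P.B => rel P ((1 : G) : G ⧸ P.B) y = σ P u).card

variable {P p}

theorem cast_card_row (hp : PDvd P p) (u : P.S) (x : G ⧸ P.B) :
    ((Finset.univ.filter fun y : G ⧸ P.B => rel P x y = σ P u).card : ZMod p) = 0 := by
  have e := cnt_eq_filter P x (σ P u)
  rw [cnt, Nat.cast_inj] at e
  rw [← e]
  exact (ZMod.natCast_eq_zero_iff _ p).2 (hp u)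

theorem tz_quad (hp : PDvd P p) (u : P.S) :
    tz P p (σ P u) * tz P p (σ P u) = -tz P p (σ P u) := by
  ext x y
  rw [tz_mul_apply, Matrix.neg_apply, tz_apply]
  have e := congrFun (congrFun (opT_quad P u) x) y
  rw [opT_mul_apply] at e
  simp only [Matrix.add_apply, Matrix.smul_apply, Matrix.one_apply, smul_eq_mul, opT,
    Matrix.of_apply] at e
  set N := (Finset.univ.filter fun z : G ⧸ P.B => rel P x z = σ P u ∧ rel P z y = σ P u).card
  have hn := cast_card_row hp u x
  rw [cnt_eq_filter P x] at e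
  set n := (Finset.univ.filter fun y : G ⧸ P.B => rel P x y = σ P u).card
  rcases eq_or_ne x y with rfl | hxy
  · rw [rel_self, if_neg (Ne.symm (σ_ne_one P u)), if_pos rfl] at e
    rw [rel_self, if_neg (Ne.symm (σ_ne_one P u)), neg_zero]
    have : N = n := by exact_mod_cast (by simpa using e : (N : ℝ) = n)
    rw [this, hn]
  · rw [if_neg hxy] at e
    by_cases hu : rel P x y = σ P u
    · rw [if_pos hu] at e ⊢
      have : N + 1 = n := by
        have : (N : ℝ) + 1 = n := by rw [e]; ring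
        exact_mod_cast this
      rw [← this, Nat.cast_add, Nat.cast_one] at hn
      exact eq_neg_of_add_eq_zero_left hn
    · rw [if_neg hu] at e ⊢
      have : N = 0 := by exact_mod_cast (by simpa using e : (N : ℝ) = 0)
      simp [this]

section pair

variable [Finite G] {s t : P.S} (h : IsPairGen P s t) (h6 : orderOf (σ P s * σ P t) = 6)
include h h6

theorem tz_alt {k : ℕ} (hk : k ≤ 6) :
    tz P p (aprod (σ P s) (σ P t) k) = aprod (tz P p (σ P s)) (tz P p (σ P t)) k ∧
    tz P p (aprod (σ P t) (σ P s) k) = aprod (tz P p (σ P t)) (tz P p (σ P s)) k := by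
  induction k with
  | zero => exact ⟨tz_one P p, tz_one P p⟩
  | succ k ih =>
    obtain ⟨i1, i2⟩ := ih (by omega)
    have key : ∀ a b : P.S, IsPairGen P a b → orderOf (σ P a * σ P b) = 6 →
        tz P p (aprod (σ P b) (σ P a) k) = aprod (tz P p (σ P b)) (tz P p (σ P a)) k →
        tz P p (aprod (σ P a) (σ P b) (k + 1)) =
          aprod (tz P p (σ P a)) (tz P p (σ P b)) (k + 1) := by
      intro a b hab hord hi
      show tz P p (σ P a * aprod (σ P b) (σ P a) k) = tz P p (σ P a) * aprod _ _ k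
      rw [← hi]
      refine tz_mul_left P p a _ ?_
      rw [← wprod_altList, ← wprod_cons,
        hab.symm.len_alt (by rw [IsPairGen.order_comm, hord]; omega),
        show a :: altList b a k = altList a b (k + 1) from rfl, hab.len_alt (by omega)]
      omega
    exact ⟨key s t h h6 i2, key t s h.symm (by rw [IsPairGen.order_comm, h6]) i1⟩

/-- The product of the idempotents is the all-ones matrix. -/
theorem cube_eq (hp : PDvd P p) :
    ((1 + tz P p (σ P s)) * (1 + tz P p (σ P t))) ^ 3 = Matrix.of fun _ _ => (1 : ZMod p) := by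
  classical
  have : Finite (W P) := inferInstance
  have : Fintype (W P) := Fintype.ofFinite _
  have hJ : (Matrix.of fun _ _ => (1 : ZMod p)) = ∑ w : W P, tz P p w := by
    ext x y
    rw [Matrix.sum_apply]
    simp [tz_apply]
  rw [hJ, h.sum_W (fun w => tz P p w), h6]
  simp only [Finset.sum_range_succ, Finset.sum_range_zero, zero_add, pow_zero, one_mul, tz_one]
  set a := σ P s
  set b := σ P t
  have haa : a * a = 1 := σ_mul_self P s
  have hbb : b * b = 1 := σ_mul_self P t
  have h6' : (a * b) ^ 6 = 1 := by rw [← h6]; exact pow_orderOf_eq_one _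
  have hpw : ∀ i j, i + j = 6 → (a * b) ^ i = (b * a) ^ j := by
    intro i j hij
    rw [← IsPairGen.inv_pow_eq s t j]
    exact eq_inv_of_mul_eq_one_left (by rw [← pow_add, hij]; exact h6')
  have hodd : ∀ i j, i + j = 5 → (a * b) ^ i * a = (b * a) ^ j * b := by
    intro i j hij
    rw [hpw i (j + 1) (by omega), pow_succ, mul_assoc, mul_assoc, haa, mul_one]
  have T := fun (k : ℕ) (hk : k ≤ 6) => tz_alt (p := p) h h6 hk
  have e1 : tz P p a = aprod (tz P p a) (tz P p b) 1 := by simp [aprod]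
  have f2 : tz P p ((a * b) ^ 1) = aprod (tz P p a) (tz P p b) 2 := by
    rw [← (T 2 (by omega)).1, ← aprod_two_mul]
  have f3 : tz P p ((a * b) ^ 1 * a) = aprod (tz P p a) (tz P p b) 3 := by
    rw [← (T 3 (by omega)).1, ← aprod_two_mul_add_one]
  have f4 : tz P p ((a * b) ^ 2) = aprod (tz P p a) (tz P p b) 4 := by
    rw [← (T 4 (by omega)).1, ← aprod_two_mul]
  have f5 : tz P p ((a * b) ^ 2 * a) = aprod (tz P p a) (tz P p b) 5 := by
    rw [← (T 5 (by omega)).1, ← aprod_two_mul_add_one]
  have f6 : tz P p ((a * b) ^ 3) = aprod (tz P p a) (tz P p b) 6 := by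
    rw [← (T 6 (by omega)).1, ← aprod_two_mul]
  have g5 : tz P p ((a * b) ^ 3 * a) = aprod (tz P p b) (tz P p a) 5 := by
    rw [← (T 5 (by omega)).2, hodd 3 2 rfl, ← aprod_two_mul_add_one]
  have g4 : tz P p ((a * b) ^ 4) = aprod (tz P p b) (tz P p a) 4 := by
    rw [← (T 4 (by omega)).2, hpw 4 2 rfl, ← aprod_two_mul]
  have g3 : tz P p ((a * b) ^ 4 * a) = aprod (tz P p b) (tz P p a) 3 := by
    rw [← (T 3 (by omega)).2, hodd 4 1 rfl, ← aprod_two_mul_add_one]
  have g2 : tz P p ((a * b) ^ 5) = aprod (tz P p b) (tz P p a) 2 := by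
    rw [← (T 2 (by omega)).2, hpw 5 1 rfl, ← aprod_two_mul]
  have g1 : tz P p ((a * b) ^ 5 * a) = aprod (tz P p b) (tz P p a) 1 := by
    rw [← (T 1 (by omega)).2, hodd 5 0 rfl, ← aprod_two_mul_add_one]
  rw [f2, f3, f4, f5, f6, g5, g4, g3, g2, g1]
  clear f2 f3 f4 f5 f6 g5 g4 g3 g2 g1 e1
  have hA := tz_quad hp s
  have hB := tz_quad hp t
  set A := tz P p a with hAdef
  set B := tz P p b with hBdef
  have hA' : ∀ X, A * (A * X) = -(A * X) := fun X => by rw [← mul_assoc, hA, neg_mul]
  have hB' : ∀ X, B * (B * X) = -(B * X) := fun X => by rw [← mul_assoc, hB, neg_mul]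
  simp only [aprod, pow_succ, pow_zero, one_mul, mul_one, mul_add, add_mul, mul_assoc, hA, hA',
    hB, hB', mul_neg, neg_mul, neg_neg]
  abel

end pair

theorem tz_mulVec_one (hp : PDvd P p) (u : P.S) :
    tz P p (σ P u) *ᵥ (fun _ => (1 : ZMod p)) = 0 := by
  funext x
  simp only [Matrix.mulVec, dotProduct, mul_one, tz_apply, Finset.sum_boole, Pi.zero_apply]
  exact cast_card_row hp u x

theorem tz_vecMul_one (hp : PDvd P p) (u : P.S) :
    (fun _ => (1 : ZMod p)) ᵥ* tz P p (σ P u) = 0 := by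
  funext y
  simp only [Matrix.vecMul, dotProduct, one_mul, tz_apply, Finset.sum_boole, Pi.zero_apply]
  rw [← cast_card_row hp u y]
  congr 2
  refine Finset.filter_congr fun z _ => ?_
  rw [rel_swap P z y, inv_eq_iff_eq_inv, σ_inv]

variable (P p) in
/-- The permutation matrix of `g` on the cosets. -/
def permZ (g : G) : Matrix (G ⧸ P.B) (G ⧸ P.B) (ZMod p) :=
  Matrix.of fun x y => if g • x = y then 1 else 0

theorem permZ_mul_apply (g : G) (M : Matrix (G ⧸ P.B) (G ⧸ P.B) (ZMod p)) (x y : G ⧸ P.B) :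
    (permZ P p g * M) x y = M (g • x) y := by
  simp [permZ, Matrix.mul_apply]

theorem mul_permZ_apply (g : G) (M : Matrix (G ⧸ P.B) (G ⧸ P.B) (ZMod p)) (x y : G ⧸ P.B) :
    (M * permZ P p g) x y = M x (g⁻¹ • y) := by
  simp only [permZ, Matrix.mul_apply, Matrix.of_apply]
  rw [Finset.sum_eq_single (g⁻¹ • y)]
  · simp
  · intro z _ hz
    rw [if_neg fun e => hz (by rw [← e, inv_smul_smul]), mul_zero]
  · simp

theorem permZ_commute (g : G) (w : W P) : Commute (permZ P p g) (tz P p w) := by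
  refine Matrix.ext fun x y => ?_
  rw [permZ_mul_apply, mul_permZ_apply, tz_apply, tz_apply]
  rw [show rel P (g • x) y = rel P x (g⁻¹ • y) by
    conv_rhs => rw [← rel_smul P g, smul_inv_smul]]

section main

variable [Finite G] {s t : P.S}

/-- Every element has a conjugate in a short double coset. -/
theorem exists_short (hp : PDvd P p) (h : IsPairGen P s t)
    (h6 : orderOf (σ P s * σ P t) = 6) (g : G) :
    ∃ a : G, bw P (a⁻¹ * g * a) = 1 ∨ bw P (a⁻¹ * g * a) = σ P s ∨ bw P (a⁻¹ * g * a) = σ P t ∨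
      bw P (a⁻¹ * g * a) = σ P s * σ P t := by
  classical
  have hA1 := tz_mulVec_one hp s
  have hB1 := tz_mulVec_one hp t
  have h1A := tz_vecMul_one hp s
  have h1B := tz_vecMul_one hp t
  set A := tz P p (σ P s) with hA
  set B := tz P p (σ P t) with hB
  set X := (1 + A) * (1 + B) with hX
  set J : Matrix (G ⧸ P.B) (G ⧸ P.B) (ZMod p) := Matrix.of fun _ _ => (1 : ZMod p) with hJ
  have hX3 : X ^ 3 = J := cube_eq h h6 hp
  have hX1 : X *ᵥ (fun _ => (1 : ZMod p)) = fun _ => (1 : ZMod p) := by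
    rw [hX, ← Matrix.mulVec_mulVec, Matrix.add_mulVec 1 B, Matrix.one_mulVec, hB1, add_zero,
      Matrix.add_mulVec, Matrix.one_mulVec, hA1, add_zero]
  have h1X : (fun _ => (1 : ZMod p)) ᵥ* X = fun _ => (1 : ZMod p) := by
    rw [hX, ← Matrix.vecMul_vecMul, Matrix.vecMul_add 1 A, Matrix.vecMul_one, h1A, add_zero,
      Matrix.vecMul_add, Matrix.vecMul_one, h1B, add_zero]
  have hJX : J * X = J := by
    ext x y
    exact congrFun h1X y
  have hPJ : permZ P p g⁻¹ * J = J := by
    ext x y
    rw [permZ_mul_apply]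
    rfl
  -- the number of cosets is one modulo `p`
  have hn : (Fintype.card (G ⧸ P.B) : ZMod p) = 1 := by
    have e : (X ^ 3) *ᵥ (fun _ => (1 : ZMod p)) = fun _ => (1 : ZMod p) := by
      generalize X = Z at hX1 ⊢
      rw [show Z ^ 3 = Z * (Z * Z) by simp [pow_succ, mul_assoc], ← Matrix.mulVec_mulVec,
        ← Matrix.mulVec_mulVec, hX1, hX1, hX1]
    rw [hX3] at e
    have := congrFun e ((1 : G) : G ⧸ P.B)
    simpa [J, Matrix.mulVec, dotProduct] using this
  have hXge : ∀ k, 3 ≤ k → X ^ k = J := by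
    intro k hk
    induction k, hk using Nat.le_induction with
    | base => exact hX3
    | succ k _ ih => rw [pow_succ, ih, hJX]
  have hPpow : ∀ k, permZ P p g⁻¹ ^ k * J = J := by
    intro k
    induction k with
    | zero => rw [pow_zero, one_mul]
    | succ k ih => rw [pow_succ, mul_assoc, hPJ, ih]
  have hc : Commute (permZ P p g⁻¹) X :=
    ((Commute.one_right _).add_right (permZ_commute g⁻¹ (σ P s))).mul_right
      ((Commute.one_right _).add_right (permZ_commute g⁻¹ (σ P t)))
  set Y := permZ P p g⁻¹ * X with hY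
  have hp3 : 3 ≤ p * p := le_trans (by norm_num) (Nat.mul_le_mul (Fact.out : p.Prime).two_le (Fact.out : p.Prime).two_le)
  have hYp : Y ^ (p * p) = J := by rw [hY, hc.mul_pow, hXge _ hp3, hPpow]
  have htr : Y.trace ≠ 0 := by
    intro h0
    have e : (Y ^ (p * p)).trace = 0 := by
      rw [pow_mul, ZMod.trace_pow_card, ZMod.trace_pow_card, h0, zero_pow (Fact.out : p.Prime).ne_zero,
        zero_pow (Fact.out : p.Prime).ne_zero]
    rw [hYp] at e
    simp [J, Matrix.trace, hn] at e
  obtain ⟨x, hx⟩ : ∃ x, Y x x ≠ 0 := by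
    by_contra hne
    push Not at hne
    exact htr (Finset.sum_eq_zero fun x _ => hne x)
  obtain ⟨a, rfl⟩ := QuotientGroup.mk_surjective x
  refine ⟨a, ?_⟩
  by_contra hne
  push Not at hne
  refine hx ?_
  rw [hY, permZ_mul_apply, hX, show (1 + A) * (1 + B) = 1 + A + B + A * B by noncomm_ring]
  have eAB : A * B = tz P p (σ P s * σ P t) := by
    refine (tz_mul_left P p s (σ P t) ?_).symm
    rw [len_σ]
    have := h.len_alt (k := 2) (by omega)
    rw [wprod_altList] at this
    simp only [aprod, mul_one] at this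
    omega
  have hrel : rel P (g⁻¹ • (a : G ⧸ P.B)) (a : G ⧸ P.B) = bw P (a⁻¹ * g * a) := by
    show rel P ((g⁻¹ * a : G) : G ⧸ P.B) (a : G ⧸ P.B) = _
    rw [rel_mk]
    congr 1
    group
  rw [eAB, Matrix.add_apply, Matrix.add_apply, Matrix.add_apply, ← tz_one P p, hA, hB, tz_apply,
    tz_apply, tz_apply, tz_apply, hrel, if_neg hne.1, if_neg hne.2.1, if_neg hne.2.2.1, if_neg hne.2.2.2]
  simp

/-- Every nontrivial element has a conjugate in `BsB`, `BtB` or `BstB`. -/
theorem exists_cell (hp : PDvd P p) (h : IsPairGen P s t) (h6 : orderOf (σ P s * σ P t) = 6)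
    (hcore : P.B.normalCore = ⊥) (g : G) (hg : g ≠ 1) :
    ∃ a : G, bw P (a * g * a⁻¹) = σ P s ∨ bw P (a * g * a⁻¹) = σ P t ∨
      bw P (a * g * a⁻¹) = σ P s * σ P t := by
  classical
  obtain ⟨a, ha⟩ := exists_short hp h h6 g
  rcases ha with ha | ha
  swap
  · exact ⟨a⁻¹, by simpa using ha⟩
  by_contra hne
  push Not at hne
  set Y : Set G := {y | y * g * y⁻¹ ∈ P.B} with hY
  have haY : a⁻¹ ∈ Y := by
    show a⁻¹ * g * a⁻¹⁻¹ ∈ P.B
    rw [inv_inv, ← bw_eq_one_iff P]
    exact ha
  let M : Submonoid G :=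
    { carrier := {b | ∀ y ∈ Y, b * y ∈ Y}
      one_mem' := fun y hy => by rwa [one_mul]
      mul_mem' := fun {b c} hb hc y hy => by rw [mul_assoc]; exact hb _ (hc y hy) }
  have hB : ∀ b ∈ P.B, b ∈ M := by
    intro b hb y hy
    show b * y * g * (b * y)⁻¹ ∈ P.B
    rw [show b * y * g * (b * y)⁻¹ = b * (y * g * y⁻¹) * b⁻¹ by group]
    exact P.B.mul_mem (P.B.mul_mem hb hy) (P.B.inv_mem hb)
  have hS : ∀ u : P.S, (u : G) ∈ M := by
    intro u y hy
    show (u : G) * y * g * ((u : G) * y)⁻¹ ∈ P.B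
    have hu2 : (u : G) * (u : G) ∈ P.B := P.sq_mem u u.2
    have e : (u : G) * y * g * ((u : G) * y)⁻¹ =
        (u : G) * (y * g * y⁻¹) * (u : G) * ((u : G) * (u : G))⁻¹ := by group
    rw [e]
    refine P.B.mul_mem ?_ (P.B.inv_mem hu2)
    have hcase : bw P ((u : G) * (y * g * y⁻¹) * (u : G)) = 1 ∨
        bw P ((u : G) * (y * g * y⁻¹) * (u : G)) = σ P u := by
      have h1 : bw P ((u : G) * (y * g * y⁻¹)) = σ P u := by
        rw [bw_mul_B P hy, bw_coe_σ]
      rcases bw_mul_σ_cases P u (c := (u : G)) h1 with e | e <;> rw [bw_coe_σ] at e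
      · exact Or.inl (by rw [e, σ_mul_self])
      · exact Or.inr e
    rcases hcase with e1 | e1
    · exact (bw_eq_one_iff P).1 e1
    · exfalso
      have e2 : bw P (((u : G) * y) * g * ((u : G) * y)⁻¹) = σ P u := by
        rw [e, bw_mul_B P (P.B.inv_mem hu2), e1]
      rcases h.cover u with rfl | rfl
      · exact (hne _).1 e2
      · exact (hne _).2.1 e2
  let M' : Subgroup G :=
    { toSubmonoid := M
      inv_mem' := fun {b} hb => by
        have hb' : b ^ (orderOf b - 1) ∈ M := pow_mem (show b ∈ M from hb) _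
        have e : b ^ (orderOf b - 1) = b⁻¹ := by
          refine eq_inv_of_mul_eq_one_left ?_
          rw [← pow_succ, Nat.sub_add_cancel (orderOf_pos b), pow_orderOf_eq_one]
        rwa [e] at hb' }
  have hBM : P.B ≤ M' := fun b hb => hB b hb
  have hSM : Subgroup.closure P.S ≤ M' := (Subgroup.closure_le _).2 fun u hu => hS ⟨u, hu⟩
  have htop : ∀ b : G, b ∈ M' := by
    intro b
    have hle : P.B ⊔ P.N ≤ M' := by
      rw [← P.closure_sup]
      exact sup_le hBM (sup_le hSM (inf_le_left.trans hBM))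
    exact hle (P.sup_eq_top ▸ Subgroup.mem_top b)
  refine hg ?_
  rw [← Subgroup.mem_bot, ← hcore]
  intro b
  have := htop (b * a) a⁻¹ haY
  rwa [mul_inv_cancel_right] at this

end main

end Cfsg.Agent.TriCC
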