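import Cfsg.Agent.TriCC.Cells
import Cfsg.Agent.TriCC.Hecke
import Cfsg.Agent.ChevTw.TwD4Thms

/-!
# Every nontrivial element of ³D₄(q) is conjugate into `U⁻ SL₂(q) U⁺`
-/

set_option autoImplicit false
set_option linter.unusedSectionVars false

namespace Cfsg.Agent.TriCC

open Cfsg.Lie Cfsg.Agent.ChevGrp Cfsg.Agent.Chev Cfsg.Agent.ChevTw Cfsg.Agent.ChevTw.D4Torus
  Cfsg.Agent.ChevTw.D4Max Cfsg.Agent.BNPair Cfsg.Agent.FeitHigman

/-- The word of the product of the two reflections, repeated. -/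
def stWord : ℕ → List (Fin chevD4.rank)
  | 0 => []
  | k + 1 => stWord k ++ (twD4.wJ chevD4 ⟨1, by decide⟩ ++ twD4.wJ chevD4 ⟨0, by decide⟩)

theorem order_tbl : (∀ r < 24, act chevD4 (stWord 6) r = r) ∧
    ∀ k < 6, 0 < k → ∃ r < 24, act chevD4 (stWord k) r ≠ r := by
  refine ⟨by decide +kernel, ?_⟩
  decide +kernel

theorem weyl_act_tbl : ∀ r < 24,
    act chevD4 [⟨1, by decide⟩] r = act chevD4 (twD4.wJ chevD4 ⟨0, by decide⟩) r ∧
    act chevD4 [⟨0, by decide⟩, ⟨2, by decide⟩, ⟨3, by decide⟩] r =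
      act chevD4 (twD4.wJ chevD4 ⟨1, by decide⟩) r := by decide +kernel

variable {K : Type*} [Field K] [Fintype K] {q : ℕ} (hq : IsPrimePow q) (hK : Fintype.card K = q ^ 3)

/-- Two representatives of a word differ by the torus. -/
theorem rep_eq {n m : GK K} {v v' : List (Fin chevD4.rank)} (hn : n ∈ (sysD4 K).Nbar)
    (hm : m ∈ (sysD4 K).Nbar) (hnv : (sysD4 K).ConjP n v) (hmv : (sysD4 K).ConjP m v')
    (h : ∀ r < 24, act chevD4 v r = act chevD4 v' r) : m⁻¹ * n ∈ (sysD4 K).Hbar := by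
  have hR := rootD4 K
  refine TwGroup.mem_Hbar_of_conjP (rulesD4 K) hR (mul_mem (inv_mem hm) hn) ((hmv.inv hR).mul hR hnv)
    fun r hr => ?_
  rw [act_append, h r hr, hR.act_reverse_act _ hr]

include hq hK in
theorem card_U_eq : Nat.card ↥((sysD4 K).Ubar ⊓ twistedD4 K q) = q ^ 12 := by
  have := thm_S1088 hq hK
  rwa [posUnipotent_eq (rulesD4 K)] at this

include hq hK in
/-- Every nontrivial element is conjugate into `U⁻ SL₂(q) U⁺`. -/
theorem exists_tgt {Allowed : SL2 (FF hq hK) → Prop} (hA : AllowOK hq hK Allowed) (p : ℕ)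
    [Fact p.Prime] [CharP K p] {g : GK K} (hg : g ∈ twistedD4 K q) (hg1 : g ≠ 1) :
    Tgt hq hK Allowed g := by
  classical
  have hR := rootD4 K
  have hl := twD4_ok.isLongest (T := twistD4 hq hK) (fun _ => rfl) rfl
  set Wt := grpD4 hq hK
  obtain ⟨P, hPB, hPN, hPS⟩ := Wt.exists_BNPair_gens (rulesD4 K) hR hl
  have memB : ∀ b : ↥Wt.Tw, b ∈ P.B ↔ (b : GK K) ∈ (sysD4 K).Bbar := fun b => by
    rw [hPB]; simp [Subgroup.mem_subgroupOf]
  have memN : ∀ b : ↥Wt.Tw, b ∈ P.N ↔ (b : GK K) ∈ (sysD4 K).Nbar := fun b => by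
    rw [hPN]; simp [Subgroup.mem_subgroupOf]
  obtain ⟨s1N, s1c, s1T⟩ := Wt.nJ_spec (rulesD4 K) hR ⟨1, by decide⟩
  obtain ⟨s0N, s0c, s0T⟩ := Wt.nJ_spec (rulesD4 K) hR ⟨0, by decide⟩
  set m1 := Wt.nJ (rulesD4 K) hR ⟨1, by decide⟩ with hm1
  set m0 := Wt.nJ (rulesD4 K) hR ⟨0, by decide⟩ with hm0
  let s : P.S := ⟨⟨m1, s1T⟩, by rw [hPS]; exact ⟨⟨1, by decide⟩, rfl⟩⟩
  let t : P.S := ⟨⟨m0, s0T⟩, by rw [hPS]; exact ⟨⟨0, by decide⟩, rfl⟩⟩
  have hpair : IsPairGen P s t := by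
    refine ⟨fun e => ?_, fun x => ?_⟩
    · have e1 : m1 = m0 := congrArg (fun y : P.S => ((y : ↥Wt.Tw) : GK K)) e
      have := Wt.inj_nJ (rulesD4 K) hR (J := ⟨1, by decide⟩) (K := ⟨0, by decide⟩)
        (by rw [← hm1, ← hm0, e1, inv_mul_cancel]; exact one_mem _)
      simp at this
    · obtain ⟨⟨J, hJ⟩, e⟩ := (Set.ext_iff.1 hPS (x : ↥Wt.Tw)).1 x.2
      have hJ2 : J < 2 := hJ
      rcases (by omega : J = 0 ∨ J = 1) with rfl | rfl
      · exact Or.inr (Subtype.ext (Subtype.ext e))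
      · exact Or.inl (Subtype.ext (Subtype.ext e))
  set n : P.N := ⟨(s : ↥Wt.Tw), P.subset s.2⟩ * ⟨(t : ↥Wt.Tw), P.subset t.2⟩ with hn
  have hnk : ∀ k : ℕ, (((n ^ k : P.N) : ↥Wt.Tw) : GK K) ∈ (sysD4 K).Nbar ∧
      (sysD4 K).ConjP (((n ^ k : P.N) : ↥Wt.Tw) : GK K) (stWord k) := by
    intro k
    refine ⟨(memN _).1 (n ^ k).2, ?_⟩
    induction k with
    | zero => simpa [stWord] using (sysD4 K).conjP_one
    | succ k ih =>
      rw [pow_succ]
      simp only [stWord]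
      exact ih.mul hR (s1c.mul hR s0c)
  have hpow : ∀ k : ℕ, (σ P s * σ P t) ^ k = 1 ↔ ∀ r < 24, act chevD4 (stWord k) r = r := by
    intro k
    have e : (σ P s * σ P t) ^ k = π P (n ^ k) := by
      rw [map_pow, hn, map_mul]
      rfl
    rw [e, π_eq_one, memB]
    obtain ⟨h1, h2⟩ := hnk k
    constructor
    · intro hB r hr
      have hH : (((n ^ k : P.N) : ↥Wt.Tw) : GK K) ∈ (sysD4 K).Hbar := by
        rw [← (sysD4 K).Bbar_inf_Nbar (rulesD4 K) hR]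
        exact Subgroup.mem_inf.2 ⟨hB, h1⟩
      have := Sys.ConjP.act_unique (sysD4 K) hR h2 ((sysD4 K).conjP_Hbar (rulesD4 K) hR hH) r hr
      rwa [act_nil] at this
    · intro h
      exact (sysD4 K).Hbar_le_Bbar (TwGroup.mem_Hbar_of_conjP (rulesD4 K) hR h1 h2 h)
  have h6 : orderOf (σ P s * σ P t) = 6 := by
    rw [orderOf_eq_iff (by norm_num)]
    refine ⟨(hpow 6).2 order_tbl.1, fun k hk hk0 e => ?_⟩
    obtain ⟨r, hr, hne⟩ := order_tbl.2 k hk hk0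
    exact hne ((hpow k).1 e r hr)
  -- the parameters are divisible by `p`
  have hFin : Fintype (↥Wt.Tw ⧸ P.B) := Fintype.ofFinite _
  obtain ⟨p', k, hp', hk, hqp⟩ := id hq
  have hpq : p' = p := by
    have h1 : ((Fintype.card K : ℕ) : K) = 0 := Nat.cast_card_eq_zero K
    rw [hK, ← hqp, ← pow_mul, Nat.cast_pow, pow_eq_zero_iff (by omega),
      CharP.cast_eq_zero_iff K p] at h1
    exact ((Nat.prime_dvd_prime_iff_eq (Fact.out : p.Prime) hp'.nat_prime).1 h1).symm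
  subst hpq
  have hdvd : PDvd P p' := by
    intro u
    set U' : Subgroup ↥Wt.Tw := ((sysD4 K).Ubar ⊓ Wt.Tw).subgroupOf Wt.Tw with hU'
    set x0 : ↥Wt.Tw ⧸ P.B := (((u : ↥Wt.Tw)) : ↥Wt.Tw ⧸ P.B) with hx0
    have hUB : U' ≤ P.B := fun a ha => (memB a).2
      ((sysD4 K).Ubar_le_Bbar (Subgroup.mem_inf.1 (Subgroup.mem_subgroupOf.1 ha)).1)
    have hset : (Finset.univ.filter fun y : ↥Wt.Tw ⧸ P.B =>
        rel P ((1 : ↥Wt.Tw) : ↥Wt.Tw ⧸ P.B) y = σ P u) =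
        (MulAction.orbit U' x0).toFinset := by
      ext y
      simp only [Finset.mem_filter, Finset.mem_univ, true_and, Set.mem_toFinset]
      induction y using QuotientGroup.induction_on with
      | H a =>
        rw [rel_mk, inv_one, one_mul]
        constructor
        · intro ha
          obtain ⟨b, hb, b', hb', e⟩ :=
            exists_eq_mul_mul' P (g := a) (n := ⟨(u : ↥Wt.Tw), P.subset u.2⟩) ha
          obtain ⟨c, hc, h, hh, eb⟩ := Wt.B_decomp (rulesD4 K) hR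
            ((orbD4 hq hK).comm_word hR twD4.longSeq) (hl.invSet_eq hR) ((memB b).1 hb) b.2
          obtain ⟨hh1, hh2⟩ := Subgroup.mem_inf.1 hh
          refine ⟨⟨⟨c, (Subgroup.mem_inf.1 hc).2⟩, Subgroup.mem_subgroupOf.2 hc⟩, ?_⟩
          show ((⟨c, (Subgroup.mem_inf.1 hc).2⟩ * (u : ↥Wt.Tw) : ↥Wt.Tw) : ↥Wt.Tw ⧸ P.B) = _
          rw [QuotientGroup.eq, e]
          set cc : ↥Wt.Tw := ⟨c, (Subgroup.mem_inf.1 hc).2⟩
          set hh' : ↥Wt.Tw := ⟨h, hh2⟩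
          have eb' : b = cc * hh' := Subtype.ext eb
          rw [eb', show (cc * (u : ↥Wt.Tw))⁻¹ * (cc * hh' * (u : ↥Wt.Tw) * b') =
            (u : ↥Wt.Tw)⁻¹ * hh' * (u : ↥Wt.Tw) * b' by group]
          refine P.B.mul_mem ((memB _).2 ?_) hb'
          push_cast
          have := Sys.conj_mem_Hbar (rulesD4 K) hR (inv_mem ((memN _).1 (P.subset u.2))) hh1
          rw [inv_inv] at this
          exact (sysD4 K).Hbar_le_Bbar this
        · rintro ⟨⟨c, hc⟩, e⟩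
          change ((c * (u : ↥Wt.Tw) : ↥Wt.Tw) : ↥Wt.Tw ⧸ P.B) = _ at e
          rw [QuotientGroup.eq] at e
          rw [show a = c * (u : ↥Wt.Tw) * ((c * (u : ↥Wt.Tw))⁻¹ * a) by group,
            bw_mul_B P e, bw_B_mul P (hUB hc), bw_coe_σ]
    have h2 := two_le_cnt P u
    rw [cnt] at h2
    rw [hset] at h2 ⊢
    rw [Set.toFinset_card, ← Nat.card_eq_fintype_card] at h2 ⊢
    have hd : Nat.card (MulAction.orbit U' x0) ∣ Nat.card U' := by
      rw [Nat.card_congr (MulAction.orbitEquivQuotientStabilizer U' x0)]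
      exact Subgroup.card_quotient_dvd_card _
    rw [Nat.card_congr (Subgroup.subgroupOfEquivOfLe inf_le_right).toEquiv,
      show Nat.card ↥((sysD4 K).Ubar ⊓ Wt.Tw) = q ^ 12 from card_U_eq hq hK,
      show q ^ 12 = p' ^ (k * 12) by rw [pow_mul, hqp]] at hd
    obtain ⟨i, -, hi⟩ := (Nat.dvd_prime_pow hp'.nat_prime).1 hd
    rw [hi] at h2 ⊢
    refine dvd_pow_self p' fun h0 => ?_
    rw [h0, pow_zero, Nat.cast_one] at h2
    norm_num at h2
  have hcore : P.B.normalCore = ⊥ := by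
    rw [hPB]
    exact Wt.core_eq_bot (rulesD4 K) hR hl (fun a b h => h)
  obtain ⟨a, ha⟩ := exists_cell hdvd hpair h6 hcore ⟨g, hg⟩ fun e => hg1 (congrArg Subtype.val e)
  set h : ↥Wt.Tw := a * ⟨g, hg⟩ * a⁻¹ with hh
  refine Tgt.of_conj _ hK (y := (a : GK K)) a.2 ?_
  have hq' : IsPrimePow q := hq
  -- reduce to a single representative times a Borel element
  have key : ∀ (ν : P.N) (μ : GK K), μ ∈ twistedD4 K q → μ⁻¹ * ((ν : ↥Wt.Tw) : GK K) ∈ (sysD4 K).Hbar →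
      bw P h = π P ν →
      (∀ b ∈ (sysD4 K).Bbar, b ∈ twistedD4 K q → Tgt hq' hK Allowed (μ * b)) →
      Tgt hq' hK Allowed ((a : GK K) * g * (a : GK K)⁻¹) := by
    intro ν μ hμ hH hν hcell
    obtain ⟨b, hb, b', hb', e⟩ := exists_eq_mul_mul' P (g := h) hν
    refine Tgt.of_conj _ hK (y := (b : GK K)⁻¹) (inv_mem b.2) ?_
    have e' : (b : GK K)⁻¹ * ((a : GK K) * g * (a : GK K)⁻¹) * (b : GK K)⁻¹⁻¹ =
        μ * (μ⁻¹ * ((ν : ↥Wt.Tw) : GK K) * ((b' : GK K) * (b : GK K))) := by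
      rw [show (a : GK K) * g * (a : GK K)⁻¹ = ((h : ↥Wt.Tw) : GK K) from rfl, e]
      push_cast
      group
    rw [e']
    refine hcell _ (mul_mem ((sysD4 K).Hbar_le_Bbar hH) (mul_mem ((memB _).1 hb') ((memB _).1 hb)))
      (mul_mem (mul_mem (inv_mem hμ) (ν : ↥Wt.Tw).2) (mul_mem b'.2 b.2))
  have hnbN : nb K ∈ (sysD4 K).Nbar := (sysD4 K).nI_mem_Nbar _
  have hnaN : na K ∈ (sysD4 K).Nbar :=
    mul_mem ((sysD4 K).nI_mem_Nbar _) (mul_mem ((sysD4 K).nI_mem_Nbar _) ((sysD4 K).nI_mem_Nbar _))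
  have hnbc : (sysD4 K).ConjP (nb K) [⟨1, by decide⟩] := (sysD4 K).conjP_nI (rulesD4 K) hR _
  have hnac : (sysD4 K).ConjP (na K) [⟨0, by decide⟩, ⟨2, by decide⟩, ⟨3, by decide⟩] :=
    ((sysD4 K).conjP_nI (rulesD4 K) hR ⟨0, by decide⟩).mul hR
      (((sysD4 K).conjP_nI (rulesD4 K) hR ⟨2, by decide⟩).mul hR
        ((sysD4 K).conjP_nI (rulesD4 K) hR ⟨3, by decide⟩))
  rcases ha with e | e | e
  · exact key ⟨(s : ↥Wt.Tw), P.subset s.2⟩ (na K) (na_mem hq' hK)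
      (rep_eq s1N hnaN s1c hnac fun r hr => (weyl_act_tbl r hr).2.symm) e
      fun b hb hbG => cell_short hq' hK hA hb hbG
  · exact key ⟨(t : ↥Wt.Tw), P.subset t.2⟩ (nb K) (nb_mem hq' hK)
      (rep_eq s0N hnbN s0c hnbc fun r hr => (weyl_act_tbl r hr).1.symm) e
      fun b hb hbG => cell_long hq' hK hA hb hbG
  · refine key (⟨(s : ↥Wt.Tw), P.subset s.2⟩ * ⟨(t : ↥Wt.Tw), P.subset t.2⟩) (na K * nb K)
      (mul_mem (na_mem hq' hK) (nb_mem hq' hK))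
      (rep_eq (mul_mem s1N s0N) (mul_mem hnaN hnbN) (s1c.mul hR s0c) (hnac.mul hR hnbc)
        fun r hr => ?_) (by rw [e, map_mul]; rfl)
      fun b hb hbG => cell_short_long hq' hK hA hb hbG
    rw [act_append, act_append, (weyl_act_tbl r hr).1,
      (weyl_act_tbl _ ((rootD4 K).act_lt _ hr)).2]
    rfl

end Cfsg.Agent.TriCC
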