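import Cfsg.Agent.ChevTw.D4Max.Weyl

/-!
# The two rank one homomorphisms of ³D₄(q) and the unipotent radicals of the maximal parabolics
-/

set_option autoImplicit false
set_option linter.unusedSectionVars false

namespace Cfsg.Agent.TriCC

open Cfsg.Lie Cfsg.Agent.ChevGrp Cfsg.Agent.Chev Cfsg.Agent.ChevTw Cfsg.Agent.ChevTw.D4Torus
  Cfsg.Agent.ChevTw.D4Max

/-- The matrices of determinant one. -/
abbrev SL2 (F : Type*) [CommRing F] : Type _ := Matrix.SpecialLinearGroup (Fin 2) F

/-- The ambient group. -/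
abbrev GK (K : Type*) [Field K] : Type _ := GL chevD4.Idx K

section sl

variable {F : Type*} [Field F]

/-- `diag(a, a⁻¹)`. -/
def sdg (a : Fˣ) : SL2 F := ⟨!![(a : F), 0; 0, ((a⁻¹ : Fˣ) : F)], by simp [Matrix.det_fin_two]⟩

theorem conjDg_mul (a : Fˣ) (g h : SL2 F) : conjDg a (g * h) = conjDg a g * conjDg a h := by
  refine Subtype.ext ?_
  show (conjDg a (g * h)).1 = (conjDg a g).1 * (conjDg a h).1
  simp only [conjDg, RankOne.sl_mul_val]
  rw [show (dg a : Matrix (Fin 2) (Fin 2) F) * g.1 * (((dg a)⁻¹ : GL (Fin 2) F).1) *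
      ((dg a : Matrix (Fin 2) (Fin 2) F) * h.1 * (((dg a)⁻¹ : GL (Fin 2) F).1)) =
    (dg a : Matrix (Fin 2) (Fin 2) F) * g.1 * ((((dg a)⁻¹ : GL (Fin 2) F).1) *
      (dg a : Matrix (Fin 2) (Fin 2) F)) * h.1 * (((dg a)⁻¹ : GL (Fin 2) F).1) by
      simp only [mul_assoc], ← Units.val_mul, inv_mul_cancel, Units.val_one, mul_one]
  simp only [mul_assoc]

/-- `conjDg a` as a homomorphism. -/
def conjDgHom (a : Fˣ) : SL2 F →* SL2 F := MonoidHom.mk' (conjDg a) (conjDg_mul a)

theorem conjDg_val (a : Fˣ) (g : SL2 F) :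
    (conjDg a g).1 = !![g.1 0 0, (a : F) * g.1 0 1; ((a⁻¹ : Fˣ) : F) * g.1 1 0, g.1 1 1] := by
  show (dg a : Matrix (Fin 2) (Fin 2) F) * g.1 * ((dg a)⁻¹ : GL (Fin 2) F).1 = _
  show !![(a : F), 0; 0, 1] * g.1 * !![((a⁻¹ : Fˣ) : F), 0; 0, 1] = _
  ext i j
  fin_cases i <;> fin_cases j <;> simp [Matrix.mul_apply, Matrix.vecMul, dotProduct, Fin.sum_univ_two, mul_comm]

theorem conjDg_upper (a : Fˣ) (t : F) :
    conjDg a (RankOne.upper t) = RankOne.upper ((a : F) * t) := by
  refine Subtype.ext ?_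
  rw [conjDg_val]
  simp [RankOne.upper]

theorem conjDg_lower (a : Fˣ) (t : F) :
    conjDg a (lower t) = lower (((a⁻¹ : Fˣ) : F) * t) := by
  refine Subtype.ext ?_
  rw [conjDg_val]
  simp [lower]

theorem upper_add (s t : F) :
    RankOne.upper s * RankOne.upper t = (RankOne.upper (s + t) : SL2 F) := by
  refine Subtype.ext ?_
  rw [RankOne.sl_mul_val]
  simp [RankOne.upper, add_comm]

theorem monT_eq (a : F) (ha : a ≠ 0) :
    (RankOne.upper a * lower (-a⁻¹) * RankOne.upper a : SL2 F).1 = !![0, a; -a⁻¹, 0] := by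
  rw [RankOne.sl_mul_val, RankOne.sl_mul_val]
  simp [RankOne.upper, lower, ha]

theorem sdg_eq (a : Fˣ) :
    sdg a = RankOne.upper (a : F) * lower (-(a : F)⁻¹) * RankOne.upper (a : F) *
      (RankOne.upper (-1) * lower (-(-1 : F)⁻¹) * RankOne.upper (-1)) := by
  refine Subtype.ext ?_
  rw [RankOne.sl_mul_val, monT_eq _ a.ne_zero, monT_eq _ (by simp)]
  simp [sdg]

end sl

/-- The roots of the unipotent radical of the parabolic of the long simple root. -/
def upL : List ℕ := [12, 13, 15, 16, 17, 18, 19, 20, 21, 22, 23]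

/-- The opposite roots. -/
def umL : List ℕ := [0, 1, 2, 3, 4, 5, 6, 7, 8, 10, 11]

/-- The roots of the unipotent radical of the parabolic of the short simple root. -/
def qL : List ℕ := [14, 15, 16, 17, 19, 20, 21, 22, 23]

/-- The set of a list. -/
def setL (L : List ℕ) : Set ℕ := {r | r ∈ L}

/-- A root element normalises the group of a list of roots. -/
def normB (r : ℕ) (L : List ℕ) : Bool :=
  L.all fun s => decide (s ≠ chevD4.neg r ∧ s < 24) &&
    (decide (s = r) || (chevD4.commTerms r s).all fun c => decide (c.1 ∈ L))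

theorem normB_tbl : (∀ r ∈ [14, 9], normB r upL = true ∧ normB r umL = true) ∧
    (∀ r ∈ [18, 13, 12, 5, 10, 11], normB r qL = true) ∧
    (∀ r ∈ qL, normB r upL = true) := by decide +kernel

theorem list_tbl : (∀ r ∈ upL, r < 24) ∧ (∀ r ∈ umL, r < 24) ∧ (∀ r ∈ qL, r < 24) ∧
    (∀ r ∈ upL, chevD4.IsPosRoot r) ∧ (∀ r ∈ qL, chevD4.IsPosRoot r) ∧
    (∀ r ∈ umL, chevD4.IsNegRoot r) ∧
    (∀ r < 24, chevD4.IsPosRoot r → r ∈ qL ∨ r ∈ [18, 13, 12]) ∧
    (∀ r < 24, chevD4.IsPosRoot r → r ∈ upL ∨ r = 14) := by decide +kernel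

theorem closed_tbl : ∀ L ∈ [upL, umL, qL, [14], [18, 13, 12]], ∀ r ∈ L, ∀ s ∈ L, s ≠ r →
    ∀ c ∈ chevD4.commTerms r s, c.1 ∈ L := by decide +kernel

theorem root_tbl : (∀ r ∈ upL, twD4.root r ∈ upL) ∧ (∀ r ∈ umL, twD4.root r ∈ umL) ∧
    (∀ r ∈ qL, twD4.root r ∈ qL) ∧ (∀ r ∈ [14], twD4.root r ∈ [14]) ∧
    (∀ r ∈ [18, 13, 12], twD4.root r ∈ [18, 13, 12]) := by decide +kernel

theorem chi_tbl :
    [chevD4.cartan 0 14, chevD4.cartan 1 14, chevD4.cartan 2 14, chevD4.cartan 3 14] =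
      [-1, 2, -1, -1] ∧
    [chevD4.cartan 0 9, chevD4.cartan 1 9, chevD4.cartan 2 9, chevD4.cartan 3 9] =
      [1, -2, 1, 1] ∧ chevD4.neg 14 = 9 ∧ chevD4.neg 18 = 5 ∧ chevD4.neg 13 = 10 ∧
    chevD4.neg 12 = 11 ∧ chevD4.simple 0 = 18 ∧ chevD4.simple 1 = 14 ∧ chevD4.simple 2 = 13 ∧
    chevD4.simple 3 = 12 := by decide +kernel

variable {K : Type*} [Field K]

variable (K) in
/-- The subgroup of a list of roots. -/
noncomputable abbrev UL (L : List ℕ) : Subgroup (GK K) := (sysD4 K).US (setL L)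

variable (K) in
/-- Its normaliser. -/
noncomputable abbrev NL (L : List ℕ) : Subgroup (GK K) :=
  Subgroup.normalizer (UL K L : Set (GK K))

theorem xU_mem {L : List ℕ} {r : ℕ} (h : r ∈ L) (t : K) : xGL chevD4 K r t ∈ UL K L :=
  (sysD4 K).x_mem_US (T := setL L) h t

theorem x_mem_NL {r : ℕ} (hr : r < 24) {L : List ℕ} (h : normB r L = true) (t : K) :
    xGL chevD4 K r t ∈ NL K L := by
  have key : ∀ a : K, ∀ s ∈ L, ∀ u : K,
      xGL chevD4 K r a * xGL chevD4 K s u * (xGL chevD4 K r a)⁻¹ ∈ UL K L := by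
    intro a s hs u
    simp only [normB, List.all_eq_true, Bool.and_eq_true, Bool.or_eq_true, decide_eq_true_eq] at h
    obtain ⟨⟨h2, hlt⟩, h3⟩ := h s hs
    rcases eq_or_ne s r with rfl | h1
    · have : xGL chevD4 K s a * xGL chevD4 K s u * (xGL chevD4 K s a)⁻¹ = xGL chevD4 K s u := by
        rw [mul_inv_eq_iff_eq_mul]
        show (sysD4 K).x s a * (sysD4 K).x s u = (sysD4 K).x s u * (sysD4 K).x s a
        rw [(sysD4 K).x_add s hr, (sysD4 K).x_add s hr, add_comm]
      rw [this]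
      exact xU_mem hs u
    · have e := (sysD4 K).comm r hr s hlt h1 h2 (-a) u
      rw [← (sysD4 K).x_inv (show r < chevD4.nroots from hr) a] at e
      have e2 : xGL chevD4 K r a * xGL chevD4 K s u * (xGL chevD4 K r a)⁻¹ =
          xGL chevD4 K s u * ((chevD4.commWord K r s (-a) u).map
            fun p => (sysD4 K).x p.1 p.2).prod := by
        show (sysD4 K).x r a * (sysD4 K).x s u * ((sysD4 K).x r a)⁻¹ =
          (sysD4 K).x s u * _
        rw [mul_assoc, e]
        group
      rw [e2]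
      refine mul_mem (xU_mem hs u) ((sysD4 K).word_mem fun p hp => ?_)
      simp only [ChevalleyDatum.commWord, List.mem_map] at hp
      obtain ⟨c, hc, rfl⟩ := hp
      exact (h3.resolve_left h1) c hc
  have e : (xGL chevD4 K r t)⁻¹ = xGL chevD4 K r (-t) :=
    (sysD4 K).x_inv (show r < chevD4.nroots from hr) t
  refine (sysD4 K).mem_normalizer_US (fun s hs u => key t s hs u) fun s hs u => ?_
  have := key (-t) s hs u
  rwa [← e, inv_inv] at this

theorem UL_closed_pos {L : List ℕ} (hL : L ∈ [upL, qL, [14], [18, 13, 12]]) :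
    UClosed chevD4 (lenD4 K) (htHom chevD4) (setL L) := by
  refine (rootD4 K).posSet_closed.subset_closed (fun r hr => ?_) (fun r hr s hs hne c hc =>
    closed_tbl L (by simp at hL ⊢; tauto) r hr s hs hne c hc)
  obtain ⟨-, -, -, h1, h2, -⟩ := list_tbl
  simp only [List.mem_cons, List.not_mem_nil, or_false] at hL
  rcases hL with rfl | rfl | rfl | rfl
  · exact h1 r hr
  · exact h2 r hr
  · obtain rfl : r = 14 := by simpa [setL] using hr
    exact h2 14 (by simp [qL])
  · exact h1 r (by simp [setL] at hr; simp [upL]; omega)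

theorem UL_closed_neg : UClosed chevD4 (lenD4 K) (-htHom chevD4) (setL umL) :=
  (rootD4 K).negSet_closed.subset_closed (fun r hr => list_tbl.2.2.2.2.2.1 r hr)
    fun r hr s hs hne c hc => closed_tbl umL (by simp) r hr s hs hne c hc

/-- The rank one relations at a root. -/
theorem rankOneAt {r : ℕ} (hr : r < 24) :
    RankOne K (xGL chevD4 K r) (xGL chevD4 K (chevD4.neg r)) := by
  have h0 : r < chevD4.nroots := hr
  have e1 : (validD4.xU (F := K) h0) = xGL chevD4 K r :=
    funext fun t => Units.ext (val_xGL (rulesD4 K) r t).symm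
  have e2 : (validD4.xU (F := K) (validD4.neg_lt h0)) = xGL chevD4 K (chevD4.neg r) :=
    funext fun t => Units.ext (val_xGL (rulesD4 K) _ t).symm
  have h := validD4.rankOne (F := K) h0
  rwa [e1, e2] at h

/-- The homomorphism of `SL₂` at a root. -/
noncomputable def phiR (r : ℕ) (hr : r < 24) : SL2 K →* GK K := (rankOneAt hr).hom

theorem phiR_upper (r : ℕ) (hr : r < 24) (t : K) :
    phiR r hr (RankOne.upper t) = xGL chevD4 K r t :=
  (rankOneAt hr).hom_upper rfl

theorem phiR_lower (r : ℕ) (hr : r < 24) (t : K) :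
    phiR r hr (lower t) = xGL chevD4 K (chevD4.neg r) t :=
  (rankOneAt hr).hom_lower rfl

theorem phiR_weyl (r : ℕ) (hr : r < 24) :
    phiR r hr (RankOne.weyl : SL2 K) = (sysD4 K).nEl r 1 := by
  rw [weyl_eq, map_mul, map_mul, phiR_upper, phiR_lower]
  show _ = xGL chevD4 K r 1 * xGL chevD4 K (chevD4.neg r) (-1⁻¹) * xGL chevD4 K r 1
  rw [inv_one]

theorem phiR_sdg (r : ℕ) (hr : r < 24) (a : Kˣ) :
    phiR r hr (sdg a) = (sysD4 K).hEl r (a : K) := by
  rw [sdg_eq]
  simp only [map_mul, phiR_upper, phiR_lower]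
  rfl

theorem phiR_commute [Fintype K] {r s : ℕ} (hr : r ∈ [18, 13, 12]) (hs : s ∈ [18, 13, 12]) (hne : s ≠ r)
    (g h : SL2 K) :
    Commute (phiR r (by simp at hr; omega) g) (phiR s (by simp at hs; omega) h) := by
  have hr24 : r < 24 := by simp at hr; omega
  have hs24 : s < 24 := by simp at hs; omega
  obtain ⟨-, -, -, n18, n13, n12, -⟩ := chi_tbl
  have hxx : ∀ a ∈ [r, chevD4.neg r], ∀ b ∈ [s, chevD4.neg s], ∀ t u : K,
      Commute (xGL chevD4 K a t) (xGL chevD4 K b u) := by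
    intro a ha b hb t u
    have tb : ∀ r ∈ [18, 13, 12], ∀ s ∈ [18, 13, 12], s ≠ r → ∀ a ∈ [r, chevD4.neg r],
        ∀ b ∈ [s, chevD4.neg s], a ∈ [18, 13, 12, 5, 10, 11] ∧ b ∈ [18, 13, 12, 5, 10, 11] ∧
          b ≠ a ∧ b ≠ chevD4.neg a := by decide +kernel
    obtain ⟨h1, h2, h3, h4⟩ := tb r hr s hs hne a ha b hb
    exact x_commuteD4 h1 h2 h3 h4 t u
  have key : ∀ a ∈ [r, chevD4.neg r], ∀ t : K, ∀ h : SL2 K,
      Commute (xGL chevD4 K a t) (phiR s hs24 h) := by
    intro a ha t h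
    have := sl2_induction
      (P := (Submonoid.centralizer ({xGL chevD4 K a t} : Set (GK K))).comap (phiR s hs24))
      (fun u => by
        rw [Submonoid.mem_comap, phiR_upper, Submonoid.mem_centralizer_iff]
        rintro x rfl
        exact hxx a ha s (by simp) t u)
      (fun u => by
        rw [Submonoid.mem_comap, phiR_lower, Submonoid.mem_centralizer_iff]
        rintro x rfl
        exact hxx a ha _ (by simp) t u) h
    exact Submonoid.mem_centralizer_iff.1 (Submonoid.mem_comap.1 this) _ rfl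
  have := sl2_induction
    (P := (Submonoid.centralizer ({phiR s hs24 h} : Set (GK K))).comap (phiR r hr24))
    (fun u => by
      rw [Submonoid.mem_comap, phiR_upper, Submonoid.mem_centralizer_iff]
      rintro x rfl
      exact (key r (by simp) u h).symm)
    (fun u => by
      rw [Submonoid.mem_comap, phiR_lower, Submonoid.mem_centralizer_iff]
      rintro x rfl
      exact (key _ (by simp) u h).symm) g
  exact (Submonoid.mem_centralizer_iff.1 (Submonoid.mem_comap.1 this) _ rfl).symm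

variable (K) in
/-- The long root `SL₂`. -/
noncomputable def phA : SL2 K →* GK K := phiR 14 (by omega)

theorem phA_upper (t : K) : phA K (RankOne.upper t) = xGL chevD4 K 14 t := phiR_upper _ _ t

theorem phA_lower (t : K) : phA K (lower t) = xGL chevD4 K 9 t := by
  rw [phA, phiR_lower, chi_tbl.2.2.1]

theorem phA_weyl : phA K (RankOne.weyl : SL2 K) = nb K := by
  rw [phA, phiR_weyl, nb, Sys.nI]
  simp only [chi_tbl.2.2.2.2.2.2.2.1]

theorem hEl_simple (i : Fin chevD4.rank) (u : Kˣ) :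
    torD4 K (Pi.mulSingle i u) = (sysD4 K).hEl (chevD4.simple i) u := by
  simp only [torD4, Sys.tau]
  rw [MonoidHom.noncommPiCoprod_mulSingle]
  rfl

theorem phA_sdg (a : Kˣ) : phA K (sdg a) = hzero a := by
  rw [phA, phiR_sdg]
  show _ = torD4 K (mkD4 1 a 1 1)
  have e : (mkD4 1 a 1 1 : Fin chevD4.rank → Kˣ) = Pi.mulSingle ⟨1, by decide⟩ a := by
    funext j
    revert j
    rw [forallD4]
    simp [mkD4, Fin.ext_iff]
  rw [e, hEl_simple]
  simp only [chi_tbl.2.2.2.2.2.2.2.1]

theorem chi_14 (c : Fin chevD4.rank → Kˣ) :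
    chiD4 K c 14 = (c ⟨0, by decide⟩)⁻¹ * c ⟨1, by decide⟩ ^ 2 * (c ⟨2, by decide⟩)⁻¹ *
      (c ⟨3, by decide⟩)⁻¹ ∧ chiD4 K c 9 = (chiD4 K c 14)⁻¹ := by
  have h := chi_tbl.1
  have h' := chi_tbl.2.1
  simp only [List.cons.injEq, and_true] at h h'
  obtain ⟨a0, a1, a2, a3⟩ := h
  obtain ⟨b0, b1, b2, b3⟩ := h'
  simp only [chiD4, a0, a1, a2, a3, b0, b1, b2, b3, zpow_neg, zpow_ofNat, pow_one,
    mul_inv_rev, inv_inv]
  refine ⟨trivial, ?_⟩
  ac_rfl

theorem tor_conj_phA (c : Fin chevD4.rank → Kˣ) (g : SL2 K) :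
    torD4 K c * phA K g * (torD4 K c)⁻¹ = phA K (conjDg (chiD4 K c 14) g) := by
  refine DFunLike.congr_fun
    (?_ : (MulAut.conj (torD4 K c)).toMonoidHom.comp (phA K) =
      (phA K).comp (conjDgHom (chiD4 K c 14))) g
  refine MonoidHom.ext (sl2_induction
    (P := ((MulAut.conj (torD4 K c)).toMonoidHom.comp (phA K)).eqLocusM
      ((phA K).comp (conjDgHom (chiD4 K c 14)))) (fun u => ?_) (fun u => ?_))
  · show torD4 K c * phA K (RankOne.upper u) * (torD4 K c)⁻¹ =
      phA K (conjDg (chiD4 K c 14) (RankOne.upper u))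
    rw [conjDg_upper, phA_upper, phA_upper, torD4_conj _ (by decide)]
  · show torD4 K c * phA K (lower u) * (torD4 K c)⁻¹ = phA K (conjDg (chiD4 K c 14) (lower u))
    rw [conjDg_lower, phA_lower, phA_lower, torD4_conj _ (by decide), (chi_14 c).2]

variable [Fintype K] {q : ℕ} (hq : IsPrimePow q) (hK : Fintype.card K = q ^ 3)

/-- The short root `SL₂`. -/
noncomputable def phB : SL2 K →* GK K :=
  MonoidHom.mk'
    (fun g => phiR 18 (by omega) g *
      phiR 13 (by omega) (Matrix.SpecialLinearGroup.map (frobD4 hq hK) g) *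
      phiR 12 (by omega) (Matrix.SpecialLinearGroup.map (frobD4 hq hK)
        (Matrix.SpecialLinearGroup.map (frobD4 hq hK) g)))
    fun g h => by
      simp only [map_mul]
      set σ := Matrix.SpecialLinearGroup.map (n := Fin 2) (frobD4 hq hK)
      have c1 := (phiR_commute (K := K) (r := 18) (s := 13) (by simp) (by simp) (by omega) h (σ g)).eq
      have c2 := (phiR_commute (K := K) (r := 13) (s := 12) (by simp) (by simp) (by omega) (σ h)
        (σ (σ g))).eq
      have c3 := (phiR_commute (K := K) (r := 18) (s := 12) (by simp) (by simp) (by omega) h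
        (σ (σ g))).eq
      set a := phiR 18 (show 18 < 24 by omega) g
      set a' := phiR 18 (show 18 < 24 by omega) h
      set b := phiR 13 (show 13 < 24 by omega) (σ g)
      set b' := phiR 13 (show 13 < 24 by omega) (σ h)
      set c := phiR 12 (show 12 < 24 by omega) (σ (σ g))
      set c' := phiR 12 (show 12 < 24 by omega) (σ (σ h))
      calc a * a' * (b * b') * (c * c') = a * (a' * b) * (b' * c) * c' := by group
        _ = a * (b * a') * (c * b') * c' := by rw [c1, c2]
        _ = a * b * (a' * c) * b' * c' := by group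
        _ = a * b * (c * a') * b' * c' := by rw [c3]
        _ = a * b * c * (a' * b' * c') := by group

theorem map_upper {F E : Type*} [Field F] [Field E] (f : F →+* E) (t : F) :
    Matrix.SpecialLinearGroup.map f (RankOne.upper t) = RankOne.upper (f t) := by
  refine Subtype.ext ?_
  rw [Matrix.SpecialLinearGroup.map_apply_coe]
  ext i j
  fin_cases i <;> fin_cases j <;> simp [RankOne.upper]

theorem map_lower {F E : Type*} [Field F] [Field E] (f : F →+* E) (t : F) :
    Matrix.SpecialLinearGroup.map f (lower t) = lower (f t) := by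
  refine Subtype.ext ?_
  rw [Matrix.SpecialLinearGroup.map_apply_coe]
  ext i j
  fin_cases i <;> fin_cases j <;> simp [lower]

theorem map_weyl {F E : Type*} [Field F] [Field E] (f : F →+* E) :
    Matrix.SpecialLinearGroup.map f RankOne.weyl = RankOne.weyl := by
  refine Subtype.ext ?_
  rw [Matrix.SpecialLinearGroup.map_apply_coe]
  ext i j
  fin_cases i <;> fin_cases j <;> simp [RankOne.weyl]

theorem map_sdg {F E : Type*} [Field F] [Field E] (f : F →+* E) (a : Fˣ) :
    Matrix.SpecialLinearGroup.map f (sdg a) = sdg (Units.map f.toMonoidHom a) := by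
  refine Subtype.ext ?_
  rw [Matrix.SpecialLinearGroup.map_apply_coe]
  ext i j
  fin_cases i <;> fin_cases j <;> simp [sdg]

theorem map_conjDg {F E : Type*} [Field F] [Field E] (f : F →+* E) (a : Fˣ) (g : SL2 F) :
    Matrix.SpecialLinearGroup.map f (conjDg a g) =
      conjDg (Units.map f.toMonoidHom a) (Matrix.SpecialLinearGroup.map f g) := by
  refine Subtype.ext ?_
  rw [conjDg_val, Matrix.SpecialLinearGroup.map_apply_coe, conjDg_val]
  ext i j
  fin_cases i <;> fin_cases j <;> simp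

/-- The negative short root elements. -/
noncomputable def Yn (q : ℕ) (t : K) : GK K :=
  xGL chevD4 K 5 t * xGL chevD4 K 10 (t ^ q) * xGL chevD4 K 11 (t ^ (q ^ 2))

include hq hK in
theorem frob_two (t : K) : frobD4 hq hK (frobD4 hq hK t) = t ^ (q ^ 2) := by
  rw [frobD4_apply, frobD4_apply, ← pow_mul, pow_two]

theorem phB_upper (t : K) : phB hq hK (RankOne.upper t) = Y1 q t := by
  show phiR 18 _ _ * phiR 13 _ _ * phiR 12 _ _ = _
  rw [map_upper, map_upper, frob_two, frobD4_apply, phiR_upper, phiR_upper, phiR_upper]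
  rfl

theorem phB_lower (t : K) : phB hq hK (lower t) = Yn q t := by
  show phiR 18 _ _ * phiR 13 _ _ * phiR 12 _ _ = _
  obtain ⟨-, -, -, n18, n13, n12, -⟩ := chi_tbl
  rw [map_lower, map_lower, frob_two, frobD4_apply, phiR_lower, phiR_lower, phiR_lower, n18, n13,
    n12]
  rfl

theorem phB_weyl : phB hq hK (RankOne.weyl : SL2 K) = na K := by
  show phiR 18 _ _ * phiR 13 _ _ * phiR 12 _ _ = _
  obtain ⟨-, -, -, -, -, -, s0, -, s2, s3⟩ := chi_tbl
  rw [map_weyl, map_weyl, phiR_weyl, phiR_weyl, phiR_weyl, na, mul_assoc]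
  simp only [Sys.nI, s0, s2, s3]

theorem phB_sdg (k : Kˣ) : phB hq hK (sdg k) = sigS q k := by
  show phiR 18 _ _ * phiR 13 _ _ * phiR 12 _ _ = _
  obtain ⟨-, -, -, -, -, -, s0, -, s2, s3⟩ := chi_tbl
  have e : sMap q k = Pi.mulSingle (⟨0, by decide⟩ : Fin chevD4.rank) k *
      Pi.mulSingle ⟨2, by decide⟩ (k ^ q) * Pi.mulSingle ⟨3, by decide⟩ ((k ^ q) ^ q) := by
    funext j
    revert j
    rw [forallD4]
    simp [sMap, mkD4, Fin.ext_iff]
  rw [sigS, MonoidHom.comp_apply, e, map_mul, map_mul, hEl_simple, hEl_simple, hEl_simple,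
    map_sdg, map_sdg, phiR_sdg, phiR_sdg, phiR_sdg]
  simp only [s0, s2, s3, Units.coe_map, RingHom.toMonoidHom_eq_coe, MonoidHom.coe_coe,
    frobD4_apply, Units.val_pow_eq_pow_val]

theorem Y1_mem_UL (t : K) : Y1 q t ∈ UL K upL :=
  mul_mem (mul_mem (xU_mem (by simp [upL]) _) (xU_mem (by simp [upL]) _))
    (xU_mem (by simp [upL]) _)

theorem Yn_mem_UL (t : K) : Yn q t ∈ UL K umL :=
  mul_mem (mul_mem (xU_mem (by simp [umL]) _) (xU_mem (by simp [umL]) _))
    (xU_mem (by simp [umL]) _)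

theorem Yn_mem (t : K) : Yn q t ∈ twistedD4 K q := by
  have h := word_mem_genSubgroup (rulesD4 K) (W := d4Words K q)
    (w := [(5, t), (10, t ^ q), (11, t ^ (q ^ 2))])
    (Or.inr ⟨t, (5, 10, 11), by simp [d4m1, d4m3, d4m4], rfl⟩)
  unfold twistedD4
  simpa [Yn, mul_assoc] using h

include hq hK in
theorem phB_mem (g : SL2 K) : phB hq hK g ∈ twistedD4 K q :=
  sl2_induction (P := (twistedD4 K q).toSubmonoid.comap (phB hq hK))
    (fun t => by show phB hq hK _ ∈ twistedD4 K q; rw [phB_upper]; exact Y1_mem t)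
    (fun t => by show phB hq hK _ ∈ twistedD4 K q; rw [phB_lower]; exact Yn_mem t) g

theorem phB_norm (g : SL2 K) : phB hq hK g ∈ NL K qL := by
  have hx : ∀ r ∈ [18, 13, 12, 5, 10, 11], ∀ t : K, xGL chevD4 K r t ∈ NL K qL := fun r hr t =>
    x_mem_NL (by simp at hr; omega) (normB_tbl.2.1 r hr) t
  exact sl2_induction (P := (NL K qL).toSubmonoid.comap (phB hq hK))
    (fun t => by
      show phB hq hK _ ∈ NL K qL
      rw [phB_upper]
      exact mul_mem (mul_mem (hx 18 (by simp) _) (hx 13 (by simp) _)) (hx 12 (by simp) _))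
    (fun t => by
      show phB hq hK _ ∈ NL K qL
      rw [phB_lower]
      exact mul_mem (mul_mem (hx 5 (by simp) _) (hx 10 (by simp) _)) (hx 11 (by simp) _)) g

theorem phA_norm (g : SL2 K) : phA K g ∈ NL K upL ∧ phA K g ∈ NL K umL := by
  have hx : ∀ r ∈ [14, 9], ∀ t : K, xGL chevD4 K r t ∈ NL K upL ⊓ NL K umL := fun r hr t =>
    Subgroup.mem_inf.2 ⟨x_mem_NL (by simp at hr; omega) (normB_tbl.1 r hr).1 t,
      x_mem_NL (by simp at hr; omega) (normB_tbl.1 r hr).2 t⟩
  exact Subgroup.mem_inf.1 (sl2_induction (P := (NL K upL ⊓ NL K umL).toSubmonoid.comap (phA K))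
    (fun t => by show phA K _ ∈ NL K upL ⊓ NL K umL; rw [phA_upper]; exact hx 14 (by simp) t)
    (fun t => by show phA K _ ∈ NL K upL ⊓ NL K umL; rw [phA_lower]; exact hx 9 (by simp) t) g)

theorem tor_norm {h : GK K} (hh : h ∈ (sysD4 K).Hbar) {L : List ℕ} (hL : ∀ r ∈ L, r < 24) :
    h ∈ NL K L :=
  (sysD4 K).Hbar_le_normalizer_US (rulesD4 K) (rootD4 K) (fun r hr => hL r hr) hh

/-- The long root `SL₂(q)`. -/
noncomputable def phF : SL2 (FF hq hK) →* GK K :=
  (phA K).comp (Matrix.SpecialLinearGroup.map (FF hq hK).subtype)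

theorem phF_apply (g : SL2 (FF hq hK)) :
    phF hq hK g = phA K (Matrix.SpecialLinearGroup.map (FF hq hK).subtype g) := rfl

theorem phF_upper (t : FF hq hK) : phF hq hK (RankOne.upper t) = xGL chevD4 K 14 (t : K) := by
  rw [phF_apply, map_upper, phA_upper]
  rfl

theorem phF_lower (t : FF hq hK) : phF hq hK (lower t) = xGL chevD4 K 9 (t : K) := by
  rw [phF_apply, map_lower, phA_lower]
  rfl

theorem phF_weyl : phF hq hK RankOne.weyl = nb K := by rw [phF_apply, map_weyl, phA_weyl]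

theorem phF_mem (g : SL2 (FF hq hK)) : phF hq hK g ∈ twistedD4 K q :=
  sl2_induction (P := (twistedD4 K q).toSubmonoid.comap (phF hq hK))
    (fun t => by
      show phF hq hK _ ∈ twistedD4 K q
      rw [phF_upper]
      exact long_mem hq hK (by simp) (pow_q_FF hq hK t))
    (fun t => by
      show phF hq hK _ ∈ twistedD4 K q
      rw [phF_lower]
      exact long_mem hq hK (by simp) (pow_q_FF hq hK t)) g

theorem phF_norm (g : SL2 (FF hq hK)) : phF hq hK g ∈ NL K upL ∧ phF hq hK g ∈ NL K umL :=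
  phA_norm _

end Cfsg.Agent.TriCC
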