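import Cfsg.Agent.TriCC.Cells

/-!
# Torus elements of ³D₄(q) with small centralisers in the radicals, and their inversion
-/

set_option autoImplicit false
set_option linter.unusedSectionVars false

namespace Cfsg.Agent.TriCC

open Cfsg.Lie Cfsg.Agent.ChevGrp Cfsg.Agent.Chev Cfsg.Agent.ChevTw Cfsg.Agent.ChevTw.D4Torus
  Cfsg.Agent.ChevTw.D4Max

/-- The exponent table: a long root, or a short one. -/
theorem cartan_upL : ∀ r ∈ upL,
    (r ∈ [22, 23] ∧ chevD4.cartan 0 r = chevD4.cartan 2 r ∧ chevD4.cartan 2 r = chevD4.cartan 3 r ∧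
      (chevD4.cartan 1 r = 1 ∨ chevD4.cartan 1 r = -1)) ∨
    (r ∉ [22, 23] ∧
      ((chevD4.cartan 2 r = chevD4.cartan 3 r ∧
          (chevD4.cartan 0 r - chevD4.cartan 2 r = 2 ∨ chevD4.cartan 0 r - chevD4.cartan 2 r = -2)) ∨
        (chevD4.cartan 0 r = chevD4.cartan 3 r ∧
          (chevD4.cartan 2 r - chevD4.cartan 0 r = 2 ∨ chevD4.cartan 2 r - chevD4.cartan 0 r = -2)) ∨
        (chevD4.cartan 0 r = chevD4.cartan 2 r ∧
          (chevD4.cartan 3 r - chevD4.cartan 0 r = 2 ∨ chevD4.cartan 3 r - chevD4.cartan 0 r = -2)))) := by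
  decide +kernel

/-- The word of the longest element. -/
def w0Word : List (Fin chevD4.rank) :=
  [⟨0, by decide⟩, ⟨2, by decide⟩, ⟨3, by decide⟩, ⟨1, by decide⟩,
    ⟨0, by decide⟩, ⟨2, by decide⟩, ⟨3, by decide⟩, ⟨1, by decide⟩,
    ⟨0, by decide⟩, ⟨2, by decide⟩, ⟨3, by decide⟩, ⟨1, by decide⟩]

theorem w0_tbl : (∀ r < 24, act chevD4 w0Word r = chevD4.neg r) ∧
    (∀ r ∈ umL, chevD4.neg r ∈ upL) ∧ (∀ r < 24, chevD4.neg r < 24 ∧ chevD4.neg (chevD4.neg r) = r) := by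
  decide +kernel

variable {K : Type*} [Field K]

/-- The representative of the longest element. -/
noncomputable def n0 (K : Type*) [Field K] : GK K :=
  na K * nb K * (na K * nb K) * (na K * nb K)

theorem n0_conjP : (sysD4 K).ConjP (n0 K) w0Word := by
  have hR := rootD4 K
  have hnbc : (sysD4 K).ConjP (nb K) [⟨1, by decide⟩] := (sysD4 K).conjP_nI (rulesD4 K) hR _
  have hnac : (sysD4 K).ConjP (na K) [⟨0, by decide⟩, ⟨2, by decide⟩, ⟨3, by decide⟩] :=
    ((sysD4 K).conjP_nI (rulesD4 K) hR ⟨0, by decide⟩).mul hR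
      (((sysD4 K).conjP_nI (rulesD4 K) hR ⟨2, by decide⟩).mul hR
        ((sysD4 K).conjP_nI (rulesD4 K) hR ⟨3, by decide⟩))
  exact ((hnac.mul hR hnbc).mul hR (hnac.mul hR hnbc)).mul hR (hnac.mul hR hnbc)

theorem n0_mem_Nbar : n0 K ∈ (sysD4 K).Nbar := by
  have h1 : na K * nb K ∈ (sysD4 K).Nbar :=
    mul_mem (mul_mem ((sysD4 K).nI_mem_Nbar _) (mul_mem ((sysD4 K).nI_mem_Nbar _)
      ((sysD4 K).nI_mem_Nbar _))) ((sysD4 K).nI_mem_Nbar _)
  exact mul_mem (mul_mem h1 h1) h1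

theorem chiD4_neg (c : Fin chevD4.rank → Kˣ) {r : ℕ} (hr : r < 24) :
    chiD4 K c (chevD4.neg r) = (chiD4 K c r)⁻¹ := by
  have e : ∀ j, j < chevD4.rank → chevD4.cartan j (chevD4.neg r) = -chevD4.cartan j r := fun j hj =>
    (rootD4 K).cartan_neg hj hr
  simp only [chiD4, e 0 (by decide), e 1 (by decide), e 2 (by decide), e 3 (by decide), zpow_neg,
    mul_inv_rev]
  ac_rfl

/-- The longest element inverts the torus. -/
theorem n0_inverts (c : Fin chevD4.rank → Kˣ) :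
    n0 K * torD4 K c * (n0 K)⁻¹ = (torD4 K c)⁻¹ := by
  have hR := rootD4 K
  obtain ⟨a, ha, hna⟩ := n0_conjP (K := K)
  set h := torD4 K c
  set g := n0 K * h * (n0 K)⁻¹ * h with hg
  have hH : g ∈ (sysD4 K).Hbar :=
    mul_mem (Sys.conj_mem_Hbar (rulesD4 K) hR n0_mem_Nbar (torD4_mem_Hbar c)) (torD4_mem_Hbar c)
  have key : ∀ r < chevD4.nroots, g * (sysD4 K).x r 1 * g⁻¹ = (sysD4 K).x r 1 := by
    intro r hr
    obtain ⟨hs, hss⟩ := w0_tbl.2.2 r hr
    set s := chevD4.neg r with hsdef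
    have ha0 : a s ≠ 0 := right_ne_zero_of_mul_eq_one (ha s hs)
    have e : ∀ t : K, (n0 K)⁻¹ * (sysD4 K).x r t * n0 K = (sysD4 K).x s (t / a s) := by
      intro t
      have := hna s hs (t / a s)
      rw [w0_tbl.1 s hs, hss, mul_div_cancel₀ t ha0] at this
      rw [← this]
      group
    calc g * (sysD4 K).x r 1 * g⁻¹
        = n0 K * (h * ((n0 K)⁻¹ * (h * (sysD4 K).x r 1 * h⁻¹) * n0 K) * h⁻¹) * (n0 K)⁻¹ := by
          rw [hg]; group
      _ = n0 K * (sysD4 K).x s ((chiD4 K c s : K) * ((chiD4 K c r : K) * 1 / a s)) * (n0 K)⁻¹ := by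
          rw [show h * (sysD4 K).x r 1 * h⁻¹ = (sysD4 K).x r ((chiD4 K c r : K) * 1) from
            torD4_conj c hr 1, e, show h * (sysD4 K).x s _ * h⁻¹ = _ from torD4_conj c hs _]
          rfl
      _ = (sysD4 K).x r 1 := by
          rw [hna s hs, w0_tbl.1 s hs, hss, hsdef, chiD4_neg c hr]
          congr 1
          rw [← hsdef]
          simp only [Units.val_inv_eq_inv_val]
          field_simp
  have h1 : g = 1 := (sysD4 K).θ_eq_one_of_fix (rulesD4 K) hR hH key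
  exact mul_eq_one_iff_eq_inv.1 (hg ▸ h1)

theorem n0_um (u : GK K) (hu : u ∈ UL K umL) : n0 K * u * (n0 K)⁻¹ ∈ UL K upL := by
  refine (sysD4 K).US_mono ?_ (conjP_mem_US n0_conjP (fun r hr => list_tbl.2.1 r hr) hu)
  rintro _ ⟨r, hr, rfl⟩
  rw [w0_tbl.1 r (list_tbl.2.1 r hr)]
  exact w0_tbl.2.1 r hr

/-- An element of a radical commuting with a torus element lives on the roots with trivial character. -/
theorem tor_supp {L : List ℕ} (hL : L ∈ [upL, qL, [14], [18, 13, 12]]) (hnd : L.Nodup)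
    (hlt : ∀ r ∈ L, r < 24) (c : Fin chevD4.rank → Kˣ) {u : GK K} (hu : u ∈ UL K L)
    (hc : torD4 K c * u = u * torD4 K c) :
    ∃ f : ℕ → K, u = (sysD4 K).P L f ∧ ∀ r ∈ L, chiD4 K c r ≠ 1 → f r = 0 := by
  have hR := rootD4 K
  have hE : Enum (setL L) L := ⟨hnd, fun r => Iff.rfl⟩
  obtain ⟨f, hf⟩ := (sysD4 K).exists_coef hR (UL_closed_pos hL) hE hu
  refine ⟨f, hf, fun r hr hne => ?_⟩
  have e : ∀ L' : List ℕ, (∀ r ∈ L', r < 24) →
      torD4 K c * (sysD4 K).P L' f * (torD4 K c)⁻¹ =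
        (sysD4 K).P L' fun r => (chiD4 K c r : K) * f r := by
    intro L' hlt'
    induction L' with
    | nil => simp [Sys.P_nil]
    | cons a L' ih =>
      rw [Sys.P_cons, Sys.P_cons, ← ih fun r hr => hlt' r (List.mem_cons_of_mem _ hr),
        ← show torD4 K c * (sysD4 K).x a (f a) * (torD4 K c)⁻¹ =
          (sysD4 K).x a ((chiD4 K c a : K) * f a) from torD4_conj c (hlt' a List.mem_cons_self) _]
      group
  have h2 : (sysD4 K).P L (fun r => (chiD4 K c r : K) * f r) = (sysD4 K).P L f := by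
    rw [← e L hlt, ← hf, hc, mul_inv_cancel_right]
  have h3 := (sysD4 K).coef_unique hR (UL_closed_pos hL) hE (congrArg (sysD4 K).θ h2) r hr
  by_contra h0
  exact hne (Units.ext ((mul_eq_right₀ h0).1 h3))

variable [Fintype K] {q : ℕ} (hq : IsPrimePow q) (hK : Fintype.card K = q ^ 3)

include hq hK in
theorem n0_mem : n0 K ∈ twistedD4 K q :=
  mul_mem (mul_mem (mul_mem (na_mem hq hK) (nb_mem hq hK)) (mul_mem (na_mem hq hK) (nb_mem hq hK)))
    (mul_mem (na_mem hq hK) (nb_mem hq hK))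

/-- The parameters `(v, w)`. -/
def cvw (q : ℕ) (v w : Kˣ) : Fin chevD4.rank → Kˣ := mkD4 v w (v ^ q) ((v ^ q) ^ q)

theorem torD4_cvw (v w : Kˣ) : torD4 K (cvw q v w) = sigS q v * hzero w := by
  rw [sigS, MonoidHom.comp_apply]
  show _ = _ * torD4 K (mkD4 1 w 1 1)
  rw [← map_mul]
  congr 1
  show _ = mkD4 _ 1 _ _ * _
  rw [mkD4_mul]
  simp [cvw]

include hK in
theorem units_sq_fixed {v : Kˣ} (k : ℕ) (h : ((v ^ k) ^ q) ^ q = (v ^ k) ^ q) :
    (v ^ k) ^ q = v ^ k := by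
  have := units_pow_cube hK (v ^ k)
  rw [h, h] at this
  exact this

/-- The characters of a torus element on the positive roots outside `α`. -/
theorem chi_ne (hK' : Fintype.card K = q ^ 3) {v w : Kˣ} (hN : v * v ^ q * (v ^ q) ^ q = 1)
    (hv : (v ^ 2) ^ q ≠ v ^ 2) (hw : w ^ q = w) {r : ℕ} (hr : r ∈ upL)
    (hs : r ∈ [22, 23] → w ≠ 1) : chiD4 K (cvw q v w) r ≠ 1 := by
  set e0 := chevD4.cartan 0 r
  set e1 := chevD4.cartan 1 r
  set e2 := chevD4.cartan 2 r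
  set e3 := chevD4.cartan 3 r
  have hchi : chiD4 K (cvw q v w) r = v ^ e0 * w ^ e1 * (v ^ q) ^ e2 * ((v ^ q) ^ q) ^ e3 := rfl
  rw [hchi]
  intro h
  set a := v ^ q with ha
  set b := a ^ q with hb
  have hwfix : ∀ e : ℤ, (w ^ e) ^ q = w ^ e := fun e => by
    rw [← zpow_natCast, ← zpow_mul, mul_comm, zpow_mul, zpow_natCast, hw]
  -- a square of a conjugate of `v` would be fixed
  have bad : ∀ (x : Kˣ) (s e : ℤ), (s = 2 ∨ s = -2) → x ^ s * w ^ e = 1 → (x ^ 2) ^ q = x ^ 2 := by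
    intro x s e hse hx
    rw [mul_eq_one_iff_eq_inv, ← zpow_neg] at hx
    rcases hse with rfl | rfl
    · rw [zpow_ofNat] at hx
      rw [hx, hwfix]
    · rw [zpow_neg, zpow_ofNat, inv_eq_iff_eq_inv, ← zpow_neg] at hx
      rw [hx, hwfix]
  have hsplit : ∀ c : ℤ, v ^ c * a ^ c * b ^ c = 1 := fun c => by
    rw [← mul_zpow, ← mul_zpow, hN, one_zpow]
  rcases cartan_upL r hr with ⟨h22, h02, h23, h1⟩ | ⟨-, ⟨h23, h2⟩ | ⟨h03, h2⟩ | ⟨h02, h2⟩⟩
  · change e0 = e2 at h02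
    change e2 = e3 at h23
    rw [h02, h23] at h
    have h' : (v ^ e3 * a ^ e3 * b ^ e3) * w ^ e1 = 1 := by rw [← h]; ac_rfl
    rw [hsplit, one_mul] at h'
    have h1' : e1 = 1 ∨ e1 = -1 := h1
    rcases h1' with e | e <;> rw [e] at h' <;> simp at h' <;> exact hs h22 h'
  · change e2 = e3 at h23
    refine hv (bad v (e0 - e2) e1 h2 ?_)
    rw [← h23] at h
    calc v ^ (e0 - e2) * w ^ e1 = v ^ (e0 - e2) * w ^ e1 * (v ^ e2 * a ^ e2 * b ^ e2) := by
          rw [hsplit, mul_one]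
      _ = v ^ e0 * w ^ e1 * a ^ e2 * b ^ e2 := by
          rw [show v ^ e0 = v ^ (e0 - e2) * v ^ e2 by rw [← zpow_add, sub_add_cancel]]; ac_rfl
      _ = 1 := h
  · change e0 = e3 at h03
    have := bad a (e2 - e0) e1 h2 (by
      rw [← h03] at h
      calc a ^ (e2 - e0) * w ^ e1 = a ^ (e2 - e0) * w ^ e1 * (v ^ e0 * a ^ e0 * b ^ e0) := by
            rw [hsplit, mul_one]
        _ = v ^ e0 * w ^ e1 * a ^ e2 * b ^ e0 := by
          rw [show a ^ e2 = a ^ (e2 - e0) * a ^ e0 by rw [← zpow_add, sub_add_cancel]]; ac_rfl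
        _ = 1 := h)
    rw [ha, pow_right_comm v q 2] at this
    exact hv (units_sq_fixed hK' 2 this)
  · change e0 = e2 at h02
    have := bad b (e3 - e0) e1 h2 (by
      rw [← h02] at h
      calc b ^ (e3 - e0) * w ^ e1 = b ^ (e3 - e0) * w ^ e1 * (v ^ e0 * a ^ e0 * b ^ e0) := by
            rw [hsplit, mul_one]
        _ = v ^ e0 * w ^ e1 * a ^ e0 * b ^ e3 := by
          rw [show b ^ e3 = b ^ (e3 - e0) * b ^ e0 by rw [← zpow_add, sub_add_cancel]]; ac_rfl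
        _ = 1 := h)
    rw [hb, pow_right_comm a q 2, ha, pow_right_comm v q 2, units_pow_cube hK'] at this
    refine hv ?_
    conv_lhs => rw [this]
    exact units_pow_cube hK' _

include hq hK in
/-- A parameter of norm one whose even powers leave the small field. -/
theorem exists_v : ∃ v : Kˣ, v * v ^ q * (v ^ q) ^ q = 1 ∧
    ∀ k : ℕ, 0 < k → k * (q - 1) < q ^ 2 + q + 1 → (v ^ k) ^ q ≠ v ^ k := by
  obtain ⟨g, hg⟩ := IsCyclic.exists_generator (α := Kˣ)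
  have hord : orderOf g = q ^ 3 - 1 := by
    rw [orderOf_eq_card_of_forall_mem_zpowers hg, Nat.card_units, Nat.card_eq_fintype_card, hK]
  have hq1 := hq.one_lt
  obtain ⟨n, rfl⟩ : ∃ n, q = n + 1 := ⟨q - 1, by omega⟩
  have hcube : (n + 1) ^ 3 - 1 = n * ((n + 1) ^ 2 + (n + 1) + 1) := by
    apply Nat.sub_eq_of_eq_add
    ring
  refine ⟨g ^ n, ?_, fun k hk hlt e => ?_⟩
  · rw [← pow_mul, ← pow_mul, ← pow_add, ← pow_add, ← orderOf_dvd_iff_pow_eq_one, hord, hcube]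
    exact dvd_of_eq (by ring)
  · rw [units_pow_iff' hq1, Nat.add_sub_cancel, ← pow_mul, ← pow_mul,
      ← orderOf_dvd_iff_pow_eq_one, hord, hcube] at e
    have hn : 0 < n := by omega
    have h1 := Nat.le_of_dvd (Nat.mul_pos hk hn) ((Nat.mul_dvd_mul_iff_left hn).1 e)
    simp only [Nat.add_sub_cancel] at hlt
    omega

end Cfsg.Agent.TriCC
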