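import Cfsg.Agent.TriCC.Classify
import Cfsg.Agent.TriCC.Torus

/-!
# Products of two conjugates of a well-placed element
-/

set_option autoImplicit false
set_option linter.unusedSectionVars false

namespace Cfsg.Agent.TriCC

open Cfsg.Lie Cfsg.Agent.ChevGrp Cfsg.Agent.Chev Cfsg.Agent.ChevTw Cfsg.Agent.ChevTw.D4Torus
  Cfsg.Agent.ChevTw.D4Max

section sl

variable {F : Type*} [Field F]

theorem sl_trace_conj (ν μ : SL2 F) :
    (ν * μ * ν⁻¹).1 0 0 + (ν * μ * ν⁻¹).1 1 1 = μ.1 0 0 + μ.1 1 1 := by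
  have h : (ν * μ * ν⁻¹).1.trace = μ.1.trace := by
    show (ν.1 * μ.1 * (ν⁻¹).1).trace = _
    rw [Matrix.trace_mul_cycle, ← RankOne.sl_mul_val, inv_mul_cancel]
    show ((1 : Matrix (Fin 2) (Fin 2) F) * μ.1).trace = _
    rw [one_mul]
  simpa [Matrix.trace_fin_two] using h

/-- An element is determined by three entries when the lower left one is not zero. -/
theorem sl_ext {μ μ' : SL2 F} (h00 : μ.1 0 0 = μ'.1 0 0) (h10 : μ.1 1 0 = μ'.1 1 0)
    (h11 : μ.1 1 1 = μ'.1 1 1) (hne : μ.1 1 0 ≠ 0) : μ = μ' := by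
  have d := RankOne.det_eq μ
  have d' := RankOne.det_eq μ'
  rw [← h00, ← h10, ← h11] at d'
  have h01 : μ.1 0 1 = μ'.1 0 1 := mul_right_cancel₀ hne (by linear_combination d' - d)
  refine Subtype.ext (Matrix.ext fun i j => ?_)
  fin_cases i <;> fin_cases j <;> assumption

/-- Scalar elements. -/
def IsScalar (μ : SL2 F) : Prop := μ.1 0 1 = 0 ∧ μ.1 1 0 = 0 ∧ μ.1 0 0 = μ.1 1 1

theorem isScalar_cases {μ : SL2 F} (h : IsScalar μ) : μ = 1 ∨ μ = -1 := by
  obtain ⟨h1, h2, h3⟩ := h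
  have d := RankOne.det_eq μ
  rw [h1, h2, ← h3, mul_zero, sub_zero, ← pow_two, sq_eq_one_iff] at d
  rcases d with e | e
  · left
    refine Subtype.ext (Matrix.ext fun i j => ?_)
    fin_cases i <;> fin_cases j <;> simp_all
  · right
    refine Subtype.ext (Matrix.ext fun i j => ?_)
    rw [Matrix.SpecialLinearGroup.coe_neg]
    fin_cases i <;> fin_cases j <;> simp_all

/-- A noncentral element has a conjugate with a given corner. -/
theorem exists_conj_corner {μ : SL2 F} (h : ¬ IsScalar μ) (e : F) :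
    ∃ ν : SL2 F, (ν * μ * ν⁻¹).1 0 0 = e ∧ (ν * μ * ν⁻¹).1 1 0 ≠ 0 := by
  obtain ⟨ν0, h0⟩ : ∃ ν : SL2 F, (ν * μ * ν⁻¹).1 1 0 ≠ 0 := by
    by_cases h10 : μ.1 1 0 = 0
    · by_cases h01 : μ.1 0 1 = 0
      · refine ⟨lower 1, ?_⟩
        have hd : μ.1 0 0 ≠ μ.1 1 1 := fun e => h ⟨h01, h10, e⟩
        rw [RankOne.sl_mul_val, RankOne.sl_mul_val, Matrix.SpecialLinearGroup.coe_inv]
        simp [lower, Matrix.adjugate_fin_two, Matrix.mul_apply, Matrix.vecMul, dotProduct,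
          Fin.sum_univ_two, h10, h01]
        intro e
        exact hd (by linear_combination e)
      · refine ⟨RankOne.weyl, ?_⟩
        rw [RankOne.sl_mul_val, RankOne.sl_mul_val, Matrix.SpecialLinearGroup.coe_inv]
        simp [RankOne.weyl, Matrix.adjugate_fin_two, Matrix.mul_apply, Matrix.vecMul, dotProduct,
          Fin.sum_univ_two, h01]
    · exact ⟨1, by simpa using h10⟩
  set μ' := ν0 * μ * ν0⁻¹
  refine ⟨RankOne.upper ((e - μ'.1 0 0) / μ'.1 1 0) * ν0, ?_⟩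
  have e1 : RankOne.upper ((e - μ'.1 0 0) / μ'.1 1 0) * ν0 * μ *
      (RankOne.upper ((e - μ'.1 0 0) / μ'.1 1 0) * ν0)⁻¹ =
      RankOne.upper ((e - μ'.1 0 0) / μ'.1 1 0) * μ' *
        (RankOne.upper ((e - μ'.1 0 0) / μ'.1 1 0))⁻¹ := by
    simp only [μ']; group
  rw [e1, RankOne.sl_mul_val, RankOne.sl_mul_val, Matrix.SpecialLinearGroup.coe_inv]
  simp [RankOne.upper, Matrix.adjugate_fin_two, Matrix.mul_apply, Matrix.vecMul, dotProduct,
    Fin.sum_univ_two, div_mul_cancel₀ _ h0, h0]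

end sl

/-- The twisted conjugation is onto. -/
theorem exists_twist {G : Type*} [Group G] [Finite G] {V : Subgroup G} {x : G}
    (hN : ∀ v ∈ V, x * v * x⁻¹ ∈ V) (hfp : ∀ v ∈ V, v * x = x * v → v = 1) {A : G} (hA : A ∈ V) :
    ∃ v ∈ V, A * x = v * x * v⁻¹ := by
  let f : V → V := fun v => ⟨(v : G) * (x * (v : G)⁻¹ * x⁻¹), mul_mem v.2 (hN _ (inv_mem v.2))⟩
  have hf : Function.Injective f := by
    intro v w e
    have e0 : (v : G) * (x * (v : G)⁻¹ * x⁻¹) = (w : G) * (x * (w : G)⁻¹ * x⁻¹) :=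
      congrArg (fun y : V => (y : G)) e
    have e' : (v : G) * x * (v : G)⁻¹ = (w : G) * x * (w : G)⁻¹ := by
      have := congrArg (· * x) e0
      simpa [mul_assoc] using this
    have : (w : G)⁻¹ * (v : G) * x = x * ((w : G)⁻¹ * (v : G)) := by
      calc (w : G)⁻¹ * (v : G) * x = (w : G)⁻¹ * ((v : G) * x * (v : G)⁻¹) * (v : G) := by group
        _ = _ := by rw [e']; group
    exact Subtype.ext (inv_mul_eq_one.1 (hfp _ (mul_mem (inv_mem w.2) v.2) this)).symm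
  obtain ⟨v, hv⟩ := Finite.surjective_of_injective hf ⟨A, hA⟩
  refine ⟨v, v.2, ?_⟩
  rw [← show (v : G) * (x * (v : G)⁻¹ * x⁻¹) = A from congrArg Subtype.val hv]
  group

variable {K : Type*} [Field K] [Fintype K] {q : ℕ} (hq : IsPrimePow q) (hK : Fintype.card K = q ^ 3)

/-- A well placed element of the Levi subgroup. -/
structure GoodElt (Allowed : SL2 (FF hq hK) → Prop) (x : GK K) : Prop where
  mem : x ∈ twistedD4 K q
  normP : x ∈ NL K upL
  normM : x ∈ NL K umL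
  fp : ∀ v ∈ UPG K q, v * x = x * v → v = 1
  inv : ∃ n ∈ twistedD4 K q, n * x * n⁻¹ = x⁻¹ ∧ ∀ v ∈ UMG K q, n * v * n⁻¹ ∈ UPG K q
  comm : ∀ μ, Allowed μ → ∃ ν σ : SL2 (FF hq hK),
    phF hq hK (ν * μ * ν⁻¹) = x * phF hq hK σ * x⁻¹ * (phF hq hK σ)⁻¹

/-- Every nontrivial element is a product of two conjugates. -/
theorem exists_two_conj {Allowed : SL2 (FF hq hK) → Prop} {x : GK K}
    (hA : AllowOK hq hK Allowed) (hx : GoodElt hq hK Allowed x) (p : ℕ) [Fact p.Prime]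
    [CharP K p] {g : GK K} (hg : g ∈ twistedD4 K q) (hg1 : g ≠ 1) :
    ∃ u ∈ twistedD4 K q, ∃ v ∈ twistedD4 K q, g = (u * x * u⁻¹) * (v * x * v⁻¹) := by
  obtain ⟨y, hy, A, hAm, B, hB, μ, hμ, e⟩ := exists_tgt hq hK hA p hg hg1
  obtain ⟨ν, σ, hc⟩ := hx.comm μ hμ
  obtain ⟨n, hn, hninv, hnU⟩ := hx.inv
  set N := phF hq hK ν
  set S := phF hq hK σ
  have hNG : N ∈ twistedD4 K q := phF_mem hq hK ν
  have hSG : S ∈ twistedD4 K q := phF_mem hq hK σ
  -- the element is fixed point free on the opposite radical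
  have hfpM : ∀ v ∈ UMG K q, v * x = x * v → v = 1 := by
    intro v hv hcv
    have h1 : (n * v * n⁻¹) * x⁻¹ = x⁻¹ * (n * v * n⁻¹) := by
      rw [← hninv]
      calc n * v * n⁻¹ * (n * x * n⁻¹) = n * (v * x) * n⁻¹ := by group
        _ = n * (x * v) * n⁻¹ := by rw [hcv]
        _ = _ := by group
    have h2 : (n * v * n⁻¹) * x = x * (n * v * n⁻¹) := by
      calc (n * v * n⁻¹) * x = x * (x⁻¹ * (n * v * n⁻¹)) * x := by group
        _ = x * ((n * v * n⁻¹) * x⁻¹) * x := by rw [h1]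
        _ = _ := by group
    simpa using hx.fp _ (hnU v hv) h2
  have hA' : N * A * N⁻¹ ∈ UMG K q := conj_mem_UMG (phF_norm hq hK ν).2 hNG hAm
  have hB' : S⁻¹ * (N * B * N⁻¹) * S ∈ UPG K q := by
    have := conj_mem_UPG (inv_mem (phF_norm hq hK σ).1) (inv_mem hSG)
      (conj_mem_UPG (phF_norm hq hK ν).1 hNG hB)
    simpa using this
  obtain ⟨v1, hv1, ev1⟩ := exists_twist (fun v hv => conj_mem_UMG hx.normM hx.mem hv) hfpM hA'
  obtain ⟨v2, hv2, ev2⟩ := exists_twist (fun v hv => conj_mem_UPG hx.normP hx.mem hv) hx.fp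
    (inv_mem hB')
  set B' := S⁻¹ * (N * B * N⁻¹) * S with hB'def
  have e2 : x⁻¹ * B' = v2 * x⁻¹ * v2⁻¹ := by
    have := congrArg (fun z => z⁻¹) ev2
    simpa [mul_assoc] using this
  refine ⟨(N * y)⁻¹ * v1,
    mul_mem (inv_mem (mul_mem hNG hy)) (Subgroup.mem_inf.1 hv1).2,
    (N * y)⁻¹ * S * v2 * n, mul_mem (mul_mem (mul_mem (inv_mem (mul_mem hNG hy)) hSG)
      (Subgroup.mem_inf.1 hv2).2) hn, ?_⟩
  have e3 : N * y * g * (N * y)⁻¹ = v1 * x * v1⁻¹ * (S * (v2 * (n * x * n⁻¹) * v2⁻¹) * S⁻¹) := by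
    rw [hninv, ← e2, ← ev1]
    calc N * y * g * (N * y)⁻¹ = N * (y * g * y⁻¹) * N⁻¹ := by group
      _ = (N * A * N⁻¹) * phF hq hK (ν * μ * ν⁻¹) * (N * B * N⁻¹) := by
          rw [e, map_mul, map_mul, map_inv, show phF hq hK ν = N from rfl]; group
      _ = _ := by rw [hc, hB'def]; group
  calc g = (N * y)⁻¹ * (N * y * g * (N * y)⁻¹) * (N * y) := by group
    _ = _ := by rw [e3]; group

/-- The two radicals are exchanged by the longest element, after a Levi element. -/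
theorem n0_exchange (ν : SL2 (FF hq hK)) {v : GK K} (hv : v ∈ UMG K q) :
    phF hq hK ν * n0 K * v * (phF hq hK ν * n0 K)⁻¹ ∈ UPG K q := by
  have h1 : n0 K * v * (n0 K)⁻¹ ∈ UPG K q := Subgroup.mem_inf.2
    ⟨n0_um v (Subgroup.mem_inf.1 hv).1,
      mul_mem (mul_mem (n0_mem hq hK) (Subgroup.mem_inf.1 hv).2) (inv_mem (n0_mem hq hK))⟩
  have := conj_mem_UPG (phF_norm hq hK ν).1 (phF_mem hq hK ν) h1
  convert this using 1
  group

end Cfsg.Agent.TriCC
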