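import Cfsg.Agent.TriCC.Hom

/-!
# Fixed factorisations in the Borel subgroup of ³D₄(q)
-/

set_option autoImplicit false
set_option linter.unusedSectionVars false

namespace Cfsg.Agent.TriCC

open Cfsg.Lie Cfsg.Agent.ChevGrp Cfsg.Agent.Chev Cfsg.Agent.ChevTw Cfsg.Agent.ChevTw.D4Torus
  Cfsg.Agent.ChevTw.D4Max

variable {K : Type*} [Field K]

variable (K) in
/-- The radical of the long root parabolic in the twisted group. -/
noncomputable def UPG (q : ℕ) : Subgroup (GK K) := UL K upL ⊓ twistedD4 K q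

variable (K) in
/-- The opposite radical. -/
noncomputable def UMG (q : ℕ) : Subgroup (GK K) := UL K umL ⊓ twistedD4 K q

variable (K) in
/-- The radical of the short root parabolic in the twisted group. -/
noncomputable def QG (q : ℕ) : Subgroup (GK K) := UL K qL ⊓ twistedD4 K q

theorem Ubar_ge_pos {L : List ℕ} (h : ∀ r ∈ L, chevD4.IsPosRoot r) : UL K L ≤ (sysD4 K).Ubar :=
  (sysD4 K).US_mono fun r hr => h r hr

theorem qL_le : UL K qL ≤ (sysD4 K).Ubar := Ubar_ge_pos list_tbl.2.2.2.2.1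

/-- An element of the normaliser moves to the other side. -/
theorem conj_mem_NL {L : List ℕ} {g u : GK K} (hg : g ∈ NL K L) (hu : u ∈ UL K L) :
    g * u * g⁻¹ ∈ UL K L :=
  (Subgroup.mem_normalizer_iff.1 hg u).1 hu

variable [Fintype K] {q : ℕ} (hq : IsPrimePow q) (hK : Fintype.card K = q ^ 3)

theorem conj_mem_UPG {g u : GK K} (hg : g ∈ NL K upL) (hgG : g ∈ twistedD4 K q)
    (hu : u ∈ UPG K q) : g * u * g⁻¹ ∈ UPG K q :=
  Subgroup.mem_inf.2 ⟨conj_mem_NL hg (Subgroup.mem_inf.1 hu).1,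
    mul_mem (mul_mem hgG (Subgroup.mem_inf.1 hu).2) (inv_mem hgG)⟩

theorem conj_mem_UMG {g u : GK K} (hg : g ∈ NL K umL) (hgG : g ∈ twistedD4 K q)
    (hu : u ∈ UMG K q) : g * u * g⁻¹ ∈ UMG K q :=
  Subgroup.mem_inf.2 ⟨conj_mem_NL hg (Subgroup.mem_inf.1 hu).1,
    mul_mem (mul_mem hgG (Subgroup.mem_inf.1 hu).2) (inv_mem hgG)⟩

theorem conj_mem_QG {g u : GK K} (hg : g ∈ NL K qL) (hgG : g ∈ twistedD4 K q)
    (hu : u ∈ QG K q) : g * u * g⁻¹ ∈ QG K q :=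
  Subgroup.mem_inf.2 ⟨conj_mem_NL hg (Subgroup.mem_inf.1 hu).1,
    mul_mem (mul_mem hgG (Subgroup.mem_inf.1 hu).2) (inv_mem hgG)⟩

include hq hK in
/-- A fixed element of a product of two fixed-stable root groups splits into fixed factors. -/
theorem split_fixed' {A B : List ℕ} (hA : A ∈ [upL, qL, [14], [18, 13, 12]])
    (hB : B ∈ [upL, qL, [14], [18, 13, 12]]) (hAρ : ∀ r ∈ A, twD4.root r ∈ A)
    (hBρ : ∀ r ∈ B, twD4.root r ∈ B) (hu : setL A ∪ setL B = posSet chevD4)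
    (hd : Disjoint (setL A) (setL B)) {u : GK K} (huU : u ∈ (sysD4 K).Ubar)
    (huG : u ∈ twistedD4 K q) :
    ∃ a ∈ UL K A ⊓ twistedD4 K q, ∃ b ∈ UL K B ⊓ twistedD4 K q, u = a * b := by
  have hR := rootD4 K
  obtain ⟨a, ha, b, hb, rfl⟩ := (sysD4 K).US_eq_mul hR hR.posSet_closed (UL_closed_pos hA)
    (UL_closed_pos hB) hu hd huU
  have hAp : setL A ⊆ posSet chevD4 := hu ▸ Set.subset_union_left
  have hBp : setL B ⊆ posSet chevD4 := hu ▸ Set.subset_union_right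
  have hAlt : ∀ r ∈ setL A, r < chevD4.nroots := fun r hr => (hAp hr).1
  have hBlt : ∀ r ∈ setL B, r < chevD4.nroots := fun r hr => (hBp hr).1
  set T := twistD4 hq hK
  have hfix := sig_fixed hq hK huG
  rw [T.sig_mul a (Twist.US_le_Gbar hAlt ha) b (Twist.US_le_Gbar hBlt hb)] at hfix
  have ha' : T.sig a ∈ (sysD4 K).US (setL A) := T.sig_US hAlt (fun r hr => hAρ r hr) ha
  have hb' : T.sig b ∈ (sysD4 K).US (setL B) := T.sig_US hBlt (fun r hr => hBρ r hr) hb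
  have h1 : a⁻¹ * T.sig a = b * (T.sig b)⁻¹ := by
    rw [eq_mul_inv_iff_mul_eq, mul_assoc, hfix, inv_mul_cancel_left]
  have h2 : a⁻¹ * T.sig a ∈ (sysD4 K).US (setL A) ⊓ (sysD4 K).US (setL B) :=
    Subgroup.mem_inf.2 ⟨mul_mem (inv_mem ha) ha', h1 ▸ mul_mem hb (inv_mem hb')⟩
  rw [(sysD4 K).US_inf hR hR.posSet_closed (UL_closed_pos hA) (UL_closed_pos hB) hAp hBp,
    hd.inter_eq] at h2
  have h3 : a⁻¹ * T.sig a = 1 := by simpa [Sys.US] using h2
  have ea : T.sig a = a := (inv_mul_eq_one.1 h3).symm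
  have eb : T.sig b = b := by
    rw [h3] at h1
    exact (mul_inv_eq_one.1 h1.symm).symm
  have hU : ∀ {L : List ℕ}, setL L ⊆ posSet chevD4 → ∀ g ∈ UL K L, g ∈ (sysD4 K).Ubar :=
    fun h g hg => (sysD4 K).US_mono h hg
  exact ⟨a, Subgroup.mem_inf.2 ⟨ha, mem_of_fixed hq hK (hU hAp a ha) ea⟩, b,
    Subgroup.mem_inf.2 ⟨hb, mem_of_fixed hq hK (hU hBp b hb) eb⟩, rfl⟩

include hq hK in
theorem exists_x14 {a : GK K} (ha : a ∈ UL K [14]) (haG : a ∈ twistedD4 K q) :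
    ∃ c : FF hq hK, a = xGL chevD4 K 14 (c : K) := by
  have hL : Enum (setL [14]) [14] := ⟨by simp, fun r => by simp [setL]⟩
  obtain ⟨f, hf⟩ := (sysD4 K).exists_coef (rootD4 K) (UL_closed_pos (by simp)) hL ha
  have e : a = xGL chevD4 K 14 (f 14) := by
    rw [hf]; simp [Sys.P]; rfl
  have hfix := sig_fixed hq hK haG
  rw [e] at hfix
  exact ⟨⟨f 14, (mem_FF hq hK).2 (fixed_long hq hK (by simp) hfix)⟩, e⟩

include hq hK in
/-- `U = X_α U_α`. -/
theorem split_alpha {u : GK K} (huU : u ∈ (sysD4 K).Ubar) (huG : u ∈ twistedD4 K q) :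
    ∃ c : FF hq hK, ∃ p ∈ UPG K q, u = xGL chevD4 K 14 (c : K) * p := by
  obtain ⟨a, ha, b, hb, rfl⟩ := split_fixed' hq hK (A := [14]) (B := upL) (by simp) (by simp)
    root_tbl.2.2.2.1 root_tbl.1
    (Set.ext fun r => by
      refine ⟨fun h => ?_, fun h => (list_tbl.2.2.2.2.2.2.2 r h.1 h).symm.imp
        (fun e => by simp [setL, e]) id⟩
      rcases h with h | h
      · obtain rfl : r = 14 := by simpa [setL] using h
        exact list_tbl.2.2.2.2.1 14 (by simp [qL])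
      · exact list_tbl.2.2.2.1 r h)
    (Set.disjoint_left.2 fun r h1 h2 => by
      simp [setL, upL] at h1 h2
      omega) huU huG
  obtain ⟨c, rfl⟩ := exists_x14 hq hK (Subgroup.mem_inf.1 ha).1 (Subgroup.mem_inf.1 ha).2
  exact ⟨c, b, hb, rfl⟩

include hq hK in
/-- `U = Q Y`. -/
theorem split_beta {u : GK K} (huU : u ∈ (sysD4 K).Ubar) (huG : u ∈ twistedD4 K q) :
    ∃ a ∈ QG K q, ∃ r : K, u = a * Y1 q r := by
  obtain ⟨a, ha, b, hb, rfl⟩ := split_fixed' hq hK (A := qL) (B := [18, 13, 12]) (by simp) (by simp)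
    root_tbl.2.2.1 root_tbl.2.2.2.2
    (Set.ext fun r => by
      refine ⟨fun h => ?_, fun h => list_tbl.2.2.2.2.2.2.1 r h.1 h⟩
      rcases h with h | h
      · exact list_tbl.2.2.2.2.1 r h
      · exact list_tbl.2.2.2.1 r (by simp [setL] at h; simp [upL]; omega))
    (Set.disjoint_left.2 fun r h1 h2 => by
      simp [setL, qL] at h1 h2
      omega) huU huG
  refine ⟨a, ha, ?_⟩
  have ep := twD4_ok.enum_posJ (T := twistD4 hq hK) (fun _ => rfl) rfl ⟨1, by decide⟩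
  have hb' : b ∈ fixUS (twistD4 hq hK) ((orbD4 hq hK).posJ ⟨1, by decide⟩) := by
    refine ⟨(sysD4 K).US_mono (fun r hr => (ep.2 r).1 ?_) (Subgroup.mem_inf.1 hb).1,
      sig_fixed hq hK (Subgroup.mem_inf.1 hb).2⟩
    simpa [TwData.posList, twD4, setL] using hr
  obtain ⟨r, -, e⟩ := (fixD4 hq hK ⟨1, by decide⟩ false b).1 hb'
  refine ⟨r, ?_⟩
  rw [e]
  simp [wordsD4, Y1, mul_assoc]

include hq hK in
/-- The elements of the torus of the twisted group. -/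
theorem exists_tor {h : GK K} (hh : h ∈ (sysD4 K).Hbar) (hG : h ∈ twistedD4 K q) :
    ∃ v : Kˣ, ∃ w : (FF hq hK)ˣ,
      h = sigS q v * hzero (Units.map (FF hq hK).subtype.toMonoidHom w) := by
  have hR := rootD4 K
  obtain ⟨c, rfl⟩ := exists_torD4 hh
  have hfix := sig_fixed hq hK hG
  rw [torD4, sig_tau (twistD4 hq hK) (rulesD4 K) hR (glSys_HMul (rulesD4 K) hR) pD4 pD4_iff q
    (by have := hq.one_lt; omega) (neg_one_pow_q hq hK)
    (fun i t => twistD4_f hq hK (twistD4_f_simple i) t)] at hfix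
  have hz : c⁻¹ * torusMap K pD4 q c ∈ rootKer chevD4 K := by
    rw [← torD4_eq_one_iff, map_mul, map_inv, inv_mul_eq_one]
    exact hfix.symm
  obtain ⟨y, hy, hcy⟩ := exists_fixed_adjustD4 hq hK c _ hz (by simp)
  obtain ⟨-, h1, h2, h3⟩ := (mem_mkD4_iff _).1 hcy
  set d := c * y with hd
  have e : torD4 K c = torD4 K d := by
    rw [hd, map_mul, (torD4_eq_one_iff y).2 hy, mul_one]
  have hw : ((d ⟨1, by decide⟩ : Kˣ) : K) ^ q = (d ⟨1, by decide⟩ : Kˣ) := by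
    rw [← Units.val_pow_eq_pow_val, h1]
  let w0 : FF hq hK := ⟨(d ⟨1, by decide⟩ : Kˣ), (mem_FF hq hK).2 hw⟩
  have hw0 : w0 ≠ 0 := fun h => (d ⟨1, by decide⟩).ne_zero (congrArg Subtype.val h)
  refine ⟨d ⟨0, by decide⟩, Units.mk0 w0 hw0, ?_⟩
  rw [e, sigS, MonoidHom.comp_apply]
  show _ = _ * torD4 K (mkD4 1 _ 1 1)
  rw [← map_mul]
  congr 1
  show d = mkD4 _ 1 _ _ * _
  rw [mkD4_mul, funext_iff, forallD4]
  refine ⟨by simp [mkD4], ?_, by simp [mkD4, h2], by simp [mkD4, h2, h3]⟩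
  simp only [mkD4, List.getD_cons_zero, List.getD_cons_succ, one_mul]
  exact Units.ext rfl

theorem NL_x {r : ℕ} (hr : r ∈ qL) (t : K) : xGL chevD4 K r t ∈ NL K upL :=
  x_mem_NL (list_tbl.2.2.1 r hr) (normB_tbl.2.2 r hr) t

include hq hK in
/-- `na⁻¹` on the long root and `nb⁻¹`. -/
theorem weyl_long :
    (∃ η : K, η ≠ 0 ∧ η ^ q = η ∧ ∀ t : K,
      na K * xGL chevD4 K 22 t * (na K)⁻¹ = xGL chevD4 K 14 (η * t)) ∧
    (∃ η : K, η ≠ 0 ∧ η ^ q = η ∧ ∀ t : K,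
      (nb K)⁻¹ * xGL chevD4 K 23 t * nb K = xGL chevD4 K 22 (η * t)) := by
  obtain ⟨-, w22, -, -, -, -, -, -, -, -, -, -, r22, -, -, -, -, -⟩ := wA_facts
  constructor
  · obtain ⟨η, hη, h⟩ := na_conj (K := K) (s := 22) (by omega)
    exact ⟨η, cast_sign_ne hη, intCast_pow_q hq hK η, fun t => by rw [h, w22]⟩
  · obtain ⟨η, hη, h⟩ := nb_conj (K := K) (s := 22) (by omega)
    refine ⟨η, cast_sign_ne hη, intCast_pow_q hq hK η, fun t => ?_⟩
    have e : (η : K) * η = 1 := by rcases hη with rfl | rfl <;> simp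
    have := h ((η : K) * t)
    rw [r22, ← mul_assoc, e, one_mul] at this
    rw [← this]
    group

include hq hK in
theorem nb_Y1_inv (t : K) : (nb K)⁻¹ * Y1 q t * nb K ∈ QG K q := by
  have tb : ∀ r ∈ [18, 13, 12], chevD4.reflectRoot 1 r ∈ qL ∧ chevD4.reflectRoot 1 r < 24 ∧
      chevD4.reflectRoot 1 (chevD4.reflectRoot 1 r) = r := by decide +kernel
  refine Subgroup.mem_inf.2 ⟨?_,
    mul_mem (mul_mem (inv_mem (nb_mem hq hK)) (Y1_mem t)) (nb_mem hq hK)⟩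
  have hx : ∀ r ∈ [18, 13, 12], ∀ u : K,
      (nb K)⁻¹ * xGL chevD4 K r u * nb K ∈ UL K qL := by
    intro r hr u
    obtain ⟨h1, h2, h3⟩ := tb r hr
    obtain ⟨η, hη, h⟩ := nb_conj (K := K) h2
    have e : (η : K) * η = 1 := by rcases hη with rfl | rfl <;> simp
    have := h ((η : K) * u)
    rw [h3, ← mul_assoc, e, one_mul] at this
    rw [← this]
    simpa [mul_assoc] using xU_mem h1 ((η : K) * u)
  have := mul_mem (mul_mem (hx 18 (by simp) t) (hx 13 (by simp) (t ^ q)))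
    (hx 12 (by simp) (t ^ (q ^ 2)))
  simpa [Y1, mul_assoc] using this

include hq hK in
theorem na_nb_Y1 (t : K) :
    na K * (nb K * Y1 q t * (nb K)⁻¹) * (na K)⁻¹ ∈ UPG K q := by
  obtain ⟨η, -, h⟩ := nb_Y1 hq hK (K := K)
  obtain ⟨η', -, h'⟩ := na_S1 hq hK (K := K)
  refine Subgroup.mem_inf.2 ⟨?_, mul_mem (mul_mem (na_mem hq hK) (mul_mem (mul_mem
    (nb_mem hq hK) (Y1_mem t)) (inv_mem (nb_mem hq hK)))) (inv_mem (na_mem hq hK))⟩
  rw [h, h']
  exact mul_mem (mul_mem (xU_mem (by simp [upL]) _) (xU_mem (by simp [upL]) _))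
    (xU_mem (by simp [upL]) _)

end Cfsg.Agent.TriCC
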